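import Mathlib
import Cfsg.Agent.H26.CharOrtho

/-!
# A derived subgroup with one class outside a normal subgroup

`IsOneClass G K`: `K` is normal, properly inside `G'`, the elements of `G' \ K` form one class and
no element outside `G'` is central modulo `K`.
-/

set_option autoImplicit false

namespace Cfsg.Agent.H23.OneClass

open Subgroup
open scoped commutatorElement

universe u

variable {G : Type u} [Group G]

/-- `G' \ K` is a nonempty class and the centre modulo `K` lies in `G'`. -/
structure IsOneClass (K : Subgroup G) : Prop where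
  normal : K.Normal
  le : K ≤ commutator G
  ne : ∃ x ∈ commutator G, x ∉ K
  class_eq : ∀ x ∈ commutator G, x ∉ K → ∀ y ∈ commutator G, y ∉ K → ∃ s, s * x * s⁻¹ = y
  center_le : ∀ c, (∀ g, ⁅c, g⁆ ∈ K) → c ∈ commutator G

/-- A quotient by a normal subgroup below `K` again has one class. -/
theorem IsOneClass.quotient {K : Subgroup G} (h : IsOneClass K) (R : Subgroup G) [R.Normal]
    (hR : R ≤ K) :
    IsOneClass (K.map (QuotientGroup.mk' R)) ∧
      commutator (G ⧸ R) = (commutator G).map (QuotientGroup.mk' R) ∧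
      ∀ g : G, (g : G ⧸ R) ∈ K.map (QuotientGroup.mk' R) ↔ g ∈ K := by
  haveI := h.normal
  have hN : commutator (G ⧸ R) = (commutator G).map (QuotientGroup.mk' R) := by
    rw [commutator_def, commutator_def, map_commutator, ← MonoidHom.range_eq_map,
      MonoidHom.range_eq_top.2 (QuotientGroup.mk'_surjective R)]
  have hmem : ∀ (M : Subgroup G), R ≤ M → ∀ g : G,
      (g : G ⧸ R) ∈ M.map (QuotientGroup.mk' R) ↔ g ∈ M := by
    intro M hM g
    refine ⟨?_, fun hg => ⟨g, hg, rfl⟩⟩
    rintro ⟨k, hk, e⟩
    have := QuotientGroup.eq.1 e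
    simpa using mul_mem hk (hM this)
  have hK := hmem K hR
  have hN' := hmem _ (hR.trans h.le)
  refine ⟨⟨h.normal.map _ (QuotientGroup.mk'_surjective R), ?_, ?_, ?_, ?_⟩, hN, hK⟩
  · rw [hN]; exact map_mono h.le
  · obtain ⟨x, hx, hx'⟩ := h.ne
    exact ⟨(x : G ⧸ R), by rw [hN]; exact (hN' x).2 hx, fun e => hx' ((hK x).1 e)⟩
  · rw [hN]
    intro x hx hx' y hy hy'
    obtain ⟨a, rfl⟩ := QuotientGroup.mk_surjective x
    obtain ⟨b, rfl⟩ := QuotientGroup.mk_surjective y
    obtain ⟨s, hs⟩ := h.class_eq a ((hN' a).1 hx) (fun e => hx' ((hK a).2 e)) b ((hN' b).1 hy)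
      (fun e => hy' ((hK b).2 e))
    exact ⟨(s : G ⧸ R), congrArg QuotientGroup.mk hs⟩
  · rw [hN]
    intro c hc
    obtain ⟨a, rfl⟩ := QuotientGroup.mk_surjective c
    refine (hN' a).2 (h.center_le a fun g => (hK _).1 ?_)
    exact hc (g : G ⧸ R)

variable [Finite G]

/-- A normal subgroup between `K` and `G'` is one of them. -/
theorem IsOneClass.dichotomy {K : Subgroup G} (h : IsOneClass K) (M : Subgroup G) [M.Normal]
    (hKM : K ≤ M) (hMN : M ≤ commutator G) : M = K ∨ M = commutator G := by
  by_cases hx : ∃ x ∈ M, x ∉ K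
  · obtain ⟨x, hxM, hxK⟩ := hx
    refine Or.inr (le_antisymm hMN fun y hy => ?_)
    by_cases hyK : y ∈ K
    · exact hKM hyK
    · obtain ⟨s, rfl⟩ := h.class_eq x (hMN hxM) hxK y hy hyK
      exact Normal.conj_mem ‹M.Normal› x hxM s
  · push Not at hx
    exact Or.inl (le_antisymm hx hKM)

/-- The class equation. -/
theorem IsOneClass.card_eq {K : Subgroup G} (h : IsOneClass K) {x : G} (hx : x ∈ commutator G)
    (hx' : x ∉ K) :
    Nat.card (centralizer ({x} : Set G)) * Nat.card K * (K.relIndex (commutator G) - 1) =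
      Nat.card G := by
  classical
  haveI : Fintype G := Fintype.ofFinite G
  haveI := h.normal
  have h1 := H26.card_class_mul_card_centralizer x
  have h2 : (Finset.univ.filter fun y : G => ConjClasses.mk y = ConjClasses.mk x) =
      Finset.univ.filter fun y : G => y ∈ commutator G ∧ y ∉ K := by
    apply Finset.filter_congr
    intro y _
    rw [ConjClasses.mk_eq_mk_iff_isConj]
    constructor
    · intro e
      obtain ⟨c, rfl⟩ := isConj_iff.1 e.symm
      refine ⟨Normal.conj_mem inferInstance x hx c, fun hy => hx' ?_⟩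
      simpa [mul_assoc] using Normal.conj_mem h.normal _ hy c⁻¹
    · rintro ⟨hy, hy'⟩
      exact isConj_iff.2 (h.class_eq y hy hy' x hx hx')
  have h3 : (Finset.univ.filter fun y : G => y ∈ commutator G ∧ y ∉ K).card + Nat.card K =
      Nat.card (commutator G) := by
    have e : Finset.univ.filter (fun y : G => y ∈ commutator G) =
        Finset.univ.filter (fun y : G => y ∈ commutator G ∧ y ∉ K) ∪
          Finset.univ.filter (fun y : G => y ∈ K) := by
      ext y
      simp only [Finset.mem_union, Finset.mem_filter, Finset.mem_univ, true_and]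
      exact ⟨fun hy => by by_cases hK : y ∈ K <;> simp [hy, hK],
        fun hy => hy.elim (fun hy => hy.1) (fun hy => h.le hy)⟩
    have e' := congrArg Finset.card e
    rw [Finset.card_union_of_disjoint (Finset.disjoint_filter.2 fun y _ hy => hy.2)] at e'
    simp only [Nat.card_eq_fintype_card, Fintype.card_subtype]
    exact e'.symm
  have h4 : Nat.card K * K.relIndex (commutator G) = Nat.card (commutator G) :=
    by rw [← card_mul_index (K.subgroupOf (commutator G)),
        Nat.card_congr (subgroupOfEquivOfLe h.le).toEquiv]; rfl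
  rw [h2] at h1
  rw [← h1, mul_assoc, Nat.mul_sub, mul_one, h4, ← h3, Nat.add_sub_cancel, mul_comm]

/-- `A ≤ ⁅A, N⁆` with `N` nilpotent forces `A = ⊥`. -/
theorem eq_bot_of_le_commutator (N A : Subgroup G) [hN : Group.IsNilpotent N] (hA : A ≤ N)
    (h : A ≤ ⁅A, N⁆) : A = ⊥ := by
  obtain ⟨n, hn⟩ := (isNilpotent_iff_lowerCentralSeries N).1 hN
  have key : ∀ m, A ≤ N.lowerCentralSeries m := by
    intro m
    induction m with
    | zero => exact hA
    | succ m ih => exact h.trans (commutator_mono ih le_rfl)
  exact le_bot_iff.1 (hn ▸ key n)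

end Cfsg.Agent.H23.OneClass
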