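import Cfsg.Agent.H23.OneClass.Basic
import Cfsg.Agent.H26.CharLinear
import Cfsg.Prelude.Def_Blocks

/-!
# An element at which only one nonlinear irreducible character is nonzero
-/

set_option autoImplicit false
set_option linter.style.haveILetI false

namespace Cfsg.Agent.H23.OneClass

open Subgroup Module Representation
open scoped commutatorElement ComplexConjugate

universe u

variable {G : Type u} [Group G] [Finite G]

/-- Linearity in terms of `charDegree`. -/
theorem charDegree_eq_one_iff (ψ : Cfsg.IrrCharacter G) :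
    Cfsg.charDegree (ψ : G → ℂ) = 1 ↔ ψ.1 1 = 1 := by
  obtain ⟨n, hn⟩ := H26.exists_nat_char_one (H26.irr_isCharacter ψ)
  simp [Cfsg.charDegree, hn]

/-- The sum of the linear characters at an element. -/
theorem sum_linear (y : G) :
    ∑ ψ ∈ Finset.univ.filter (fun ψ : Cfsg.IrrCharacter G => ψ.1 1 = 1), ψ.1 y =
      open scoped Classical in if y ∈ commutator G then ((commutator G).index : ℂ) else 0 := by
  classical
  haveI : Finite (G →* ℂˣ) := Finite.of_equiv _ (H26.linearCharEquiv G).symm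
  haveI : Fintype (G →* ℂˣ) := Fintype.ofFinite _
  have h1 : ∑ ψ ∈ Finset.univ.filter (fun ψ : Cfsg.IrrCharacter G => ψ.1 1 = 1), ψ.1 y =
      ∑ f : G →* ℂˣ, (f y : ℂ) := by
    rw [Finset.sum_subtype (p := fun ψ : Cfsg.IrrCharacter G => ψ.1 1 = 1) _ (fun ψ => by simp)]
    exact (Fintype.sum_equiv (H26.linearCharEquiv G) (fun f => (f y : ℂ))
      (fun ψ => ψ.1.1 y) (fun f => rfl)).symm
  rw [h1]
  split_ifs with hy
  · rw [Finset.sum_congr rfl (g := fun _ => (1 : ℂ)) fun f _ => by
      rw [MonoidHom.mem_ker.1 (Abelianization.commutator_subset_ker f hy), Units.val_one],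
      Finset.sum_const, nsmul_eq_mul, mul_one, Finset.card_univ, ← Nat.card_eq_fintype_card,
      Nat.card_congr (H26.linearCharEquiv G), H26.card_linear_irr]
  · haveI : Finite (Abelianization G) := Finite.of_surjective _ (QuotientGroup.mk'_surjective _)
    haveI : NeZero (Monoid.exponent (Abelianization G)) := ⟨Monoid.exponent_ne_zero_of_finite⟩
    obtain ⟨φ, hφ⟩ := CommGroup.exists_apply_ne_one_of_hasEnoughRootsOfUnity (Abelianization G) ℂ
      (a := Abelianization.of y)
      (fun e => hy ((QuotientGroup.eq_one_iff (N := commutator G) y).1 e))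
    set f0 := φ.comp Abelianization.of
    have hS : (f0 y : ℂ) * (∑ f : G →* ℂˣ, (f y : ℂ)) = ∑ f : G →* ℂˣ, (f y : ℂ) := by
      rw [Finset.mul_sum]
      exact Fintype.sum_equiv (Equiv.mulLeft f0) _ _ fun f => (Units.val_mul _ _).symm
    by_contra hne
    exact hφ (Units.ext ((mul_eq_right₀ hne).1 hS))

/-- The facts about `g` and `χ`. -/
theorem char_facts (g : G) (hg1 : g ≠ 1) (χ : Cfsg.IrrCharacter G) (hχ1 : χ.1 1 ≠ 1)
    (hχg : χ.1 g ≠ 0) (hother : ∀ ψ : Cfsg.IrrCharacter G, ψ.1 1 ≠ 1 → ψ ≠ χ → ψ.1 g = 0) :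
    g ∈ commutator G ∧ χ.1 g = -(((commutator G).index : ℂ) / χ.1 1) ∧ χ.1 g ≠ χ.1 1 ∧
      (∀ x, x ∉ commutator G → χ.1 x = 0) ∧
      (∀ x ∈ commutator G, ¬ IsConj g x → χ.1 x = χ.1 1) := by
  classical
  haveI : Fintype G := Fintype.ofFinite G
  obtain ⟨d, hd⟩ := H26.exists_nat_char_one (H26.irr_isCharacter χ)
  have hd0 : χ.1 1 ≠ 0 := H26.irr_one_ne_zero χ
  have hsplit : ∀ x, (∑ ψ ∈ Finset.univ.filter (fun ψ : Cfsg.IrrCharacter G => ψ.1 1 = 1),
        ψ.1 g * conj (ψ.1 x)) + χ.1 g * conj (χ.1 x) =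
      (Nat.card (centralizer ({x} : Set G)) : ℂ) * H26.classIndicator x g := by
    intro x
    rw [← H26.column_orthogonality g x,
      ← Finset.sum_filter_add_sum_filter_not Finset.univ
        (fun ψ : Cfsg.IrrCharacter G => ψ.1 1 = 1) (fun ψ => ψ.1 g * conj (ψ.1 x))]
    congr 1
    rw [Finset.sum_eq_single χ]
    · intro ψ hψ hne
      rw [hother ψ (Finset.mem_filter.1 hψ).2 hne, zero_mul]
    · intro hn
      simp [hχ1] at hn
  have hind : ∀ x, ¬ IsConj g x → H26.classIndicator x g = 0 := fun x hx => if_neg hx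
  have h1 := hsplit 1
  rw [hind 1 (fun e => hg1 (isConj_one_left.1 e)), mul_zero, hd, Complex.conj_natCast, ← hd] at h1
  rw [Finset.sum_congr rfl (g := fun ψ : Cfsg.IrrCharacter G => ψ.1 g) fun ψ hψ => by
    rw [(Finset.mem_filter.1 hψ).2, map_one, mul_one], sum_linear] at h1
  have hgN : g ∈ commutator G := by
    by_contra hn
    rw [if_neg hn, zero_add] at h1
    exact (mul_ne_zero hχg hd0) h1
  rw [if_pos hgN] at h1
  have hval : χ.1 g = -(((commutator G).index : ℂ) / χ.1 1) := by
    field_simp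
    linear_combination h1
  have hne : χ.1 g ≠ χ.1 1 := by
    intro e
    rw [e, hd, ← Nat.cast_mul, ← Nat.cast_add, Nat.cast_eq_zero] at h1
    have : (commutator G).index ≠ 0 := index_ne_zero_of_finite
    omega
  have hgen : ∀ x, ¬ IsConj g x →
      (if x ∈ commutator G then ((commutator G).index : ℂ) else 0) +
        χ.1 g * conj (χ.1 x) = 0 := by
    intro x hx
    have h2 := hsplit x
    rw [hind x hx, mul_zero] at h2
    refine Eq.trans ?_ h2
    congr 1
    have h3 := congrArg conj (sum_linear x)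
    rw [map_sum] at h3
    have e : conj (if x ∈ commutator G then ((commutator G).index : ℂ) else 0) =
        if x ∈ commutator G then ((commutator G).index : ℂ) else 0 := by
      split_ifs <;> simp
    rw [e] at h3
    rw [← h3]
    refine Finset.sum_congr rfl fun ψ hψ => ?_
    obtain ⟨f, hf⟩ := H26.exists_hom_of_isCharacter_one (H26.irr_isCharacter ψ)
      (Finset.mem_filter.1 hψ).2
    rw [show ψ.1 g = (f g : ℂ) from (hf g).symm,
      MonoidHom.mem_ker.1 (Abelianization.commutator_subset_ker f hgN), Units.val_one, one_mul]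
  refine ⟨hgN, hval, hne, fun x hx => ?_, fun x hx hxg => ?_⟩
  · have hconj : ¬ IsConj g x := fun e => hx (by
      obtain ⟨c, rfl⟩ := isConj_iff.1 e
      exact Normal.conj_mem inferInstance g hgN c)
    have h2 := hgen x hconj
    rw [if_neg hx, zero_add] at h2
    have h3 := (mul_eq_zero.1 h2).resolve_left hχg
    exact (map_eq_zero (starRingEnd ℂ)).1 h3
  · have h2 := hgen x hxg
    rw [if_pos hx, ← h1] at h2
    have h3 : conj (χ.1 x) = χ.1 1 := mul_left_cancel₀ hχg (add_left_cancel h2)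
    have h4 := congrArg conj h3
    rwa [Complex.conj_conj, hd, Complex.conj_natCast, ← hd] at h4

/-- The kernel of `χ` gives a one-class configuration. -/
theorem isOneClass_kernel (g : G) (χ : Cfsg.IrrCharacter G) (hgN : g ∈ commutator G)
    (hne : χ.1 g ≠ χ.1 1) (hout : ∀ x, x ∉ commutator G → χ.1 x = 0)
    (hin : ∀ x ∈ commutator G, ¬ IsConj g x → χ.1 x = χ.1 1) :
    ∃ K : Subgroup G, IsOneClass K := by
  obtain ⟨n, ρ, hρ, hρe⟩ := χ.2
  have hd0 : χ.1 1 ≠ 0 := H26.irr_one_ne_zero χ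
  let K : Subgroup G := ρ.ker
  have hK : ∀ x, x ∈ K ↔ χ.1 x = χ.1 1 := by
    intro x
    rw [MonoidHom.mem_ker, ← hρe, ρ.char_one]
    exact (H25.char_eq_degree_iff ρ x).symm
  have hmem : ∀ x ∈ commutator G, x ∉ K → IsConj g x := by
    intro x hx hx'
    by_contra hc
    exact hx' ((hK x).2 (hin x hx hc))
  refine ⟨K, inferInstance, fun x hx => ?_, ⟨g, hgN, fun e => hne ((hK g).1 e)⟩, ?_, ?_⟩
  · by_contra hn
    exact hd0 (((hK x).1 hx).symm.trans (hout x hn))
  · intro x hx hx' y hy hy'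
    exact isConj_iff.1 ((hmem x hx hx').symm.trans (hmem y hy hy'))
  · intro c hc
    by_contra hn
    have h0 := hout c hn
    have hcomm : ∀ y, ρ c ∘ₗ ρ y = ρ y ∘ₗ ρ c := by
      intro y
      have h1 : ρ ⁅c, y⁆ = 1 := MonoidHom.mem_ker.1 (hc y)
      rw [← Module.End.mul_eq_comp, ← Module.End.mul_eq_comp, ← map_mul, ← map_mul,
        show c * y = ⁅c, y⁆ * (y * c) by rw [commutatorElement_def]; group, map_mul, h1, one_mul]
    have hω := H25.eq_smul_id_of_comm ρ (ρ c) hcomm
    have h1 : LinearMap.trace ℂ (Fin n → ℂ) (ρ c) = 0 := by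
      have := congrFun hρe c
      rw [h0] at this
      exact this
    rw [h1, zero_div, zero_smul] at hω
    have h2 : ρ c * ρ c⁻¹ = 1 := by rw [← map_mul, mul_inv_cancel, map_one]
    rw [hω, zero_mul] at h2
    have := H25.nontrivial_of_isIrreducible ρ
    exact zero_ne_one h2

end Cfsg.Agent.H23.OneClass
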