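import Mathlib

/-!
# An endomorphism lemma for fixed-point-free automorphisms of order four
-/

set_option autoImplicit false

namespace Cfsg.Agent.H23.OneClass

/-- `g` of finite order coprime to the torsion: `(g - 1)² a = 0` forces `g a = a`. -/
theorem fixed_of_sub_sub {A : Type*} [AddCommGroup A] (g : AddMonoid.End A) {o : ℕ}
    (hgo : g ^ o = 1) (htor : ∀ a : A, o • a = 0 → a = 0) (a : A)
    (h : g (g a - a) = g a - a) : g a = a := by
  have key : ∀ k : ℕ, (g ^ k) a = a + k • (g a - a) := by
    intro k
    induction k with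
    | zero => simp
    | succ k ih =>
      have e : (g ^ (k + 1)) a = g ((g ^ k) a) := by rw [pow_succ']; rfl
      rw [e, ih, map_add, map_nsmul, h, succ_nsmul']
      abel
  have h1 := key o
  rw [hgo] at h1
  exact sub_eq_zero.1 (htor _ (by simpa using h1.symm))

/-- `s` of order four without fixed points twists commuting `I`, `J` of odd coprime order
as `I ↦ J ↦ I⁻¹`; if `(I - 1)(J - 1)` kills the points fixed by `s²` then `I = 1`. -/
theorem apply_eq_of_twisted {A : Type*} [AddCommGroup A] (s I I' J J' : AddMonoid.End A) {o : ℕ}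
    (hI'I : I' * I = 1) (hII' : I * I' = 1) (hJ'J : J' * J = 1) (hJJ' : J * J' = 1)
    (hIJ : I * J = J * I) (hsI : s * I = J * s) (hsI' : s * I' = J' * s) (hsJ : s * J = I' * s)
    (hodd : Odd o) (hIo : I ^ o = 1) (hJo : J ^ o = 1) (htor : ∀ a : A, o • a = 0 → a = 0)
    (hs4 : ∀ a, s (s (s (s a))) = a) (hfpf : ∀ a, s a = a → a = 0)
    (hkill : ∀ a, s (s a) = a → I (J a - a) = J a - a) (a : A) : I a = a := by
  set u := s * s with hu
  have cI'J : I' * J = J * I' := by
    calc I' * J = I' * J * (I * I') := by rw [hII', mul_one]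
      _ = I' * (J * I) * I' := by noncomm_ring
      _ = I' * (I * J) * I' := by rw [hIJ]
      _ = (I' * I) * J * I' := by noncomm_ring
      _ = J * I' := by rw [hI'I, one_mul]
  have cI'J' : I' * J' = J' * I' := by
    calc I' * J' = (J' * J) * (I' * J') := by rw [hJ'J, one_mul]
      _ = J' * (J * I') * J' := by noncomm_ring
      _ = J' * (I' * J) * J' := by rw [cI'J]
      _ = J' * I' * (J * J') := by noncomm_ring
      _ = J' * I' := by rw [hJJ', mul_one]
  have hIa : ∀ x, I (I' x) = x := fun x => DFunLike.congr_fun hII' x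
  have hI'a : ∀ x, I' (I x) = x := fun x => DFunLike.congr_fun hI'I x
  have hJa : ∀ x, J (J' x) = x := fun x => DFunLike.congr_fun hJJ' x
  have hJ'a : ∀ x, J' (J x) = x := fun x => DFunLike.congr_fun hJ'J x
  have cIJ : ∀ x, I (J x) = J (I x) := fun x => DFunLike.congr_fun hIJ x
  have cI'Jx : ∀ x, I' (J x) = J (I' x) := fun x => DFunLike.congr_fun cI'J x
  have cI'J'x : ∀ x, I' (J' x) = J' (I' x) := fun x => DFunLike.congr_fun cI'J' x
  have sI : ∀ x, s (I x) = J (s x) := fun x => DFunLike.congr_fun hsI x
  have sI' : ∀ x, s (I' x) = J' (s x) := fun x => DFunLike.congr_fun hsI' x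
  have sJ : ∀ x, s (J x) = I' (s x) := fun x => DFunLike.congr_fun hsJ x
  have uI : ∀ x, s (s (I x)) = I' (s (s x)) := fun x => by rw [sI, sJ]
  have uJ : ∀ x, s (s (J x)) = J' (s (s x)) := fun x => by rw [sJ, sI']
  have hIfix := fixed_of_sub_sub I hIo htor
  have hJfix := fixed_of_sub_sub J hJo htor
  have hodd' : ∀ x, I (I x) = x → I x = x := by
    intro x hx
    obtain ⟨k, hk⟩ := hodd
    have e : ∀ m : ℕ, (I ^ (2 * m)) x = x := by
      intro m
      induction m with
      | zero => rfl
      | succ m ih =>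
        have e2 : (I ^ (2 * (m + 1))) x = I (I ((I ^ (2 * m)) x)) := by
          rw [show 2 * (m + 1) = 2 + 2 * m by ring, pow_add, sq]; rfl
        rw [e2, ih, hx]
    have h1 : (I ^ o) x = I x := by
      rw [hk, pow_succ']
      show I ((I ^ (2 * k)) x) = I x
      rw [e]
    rw [← h1, hIo]
    rfl
  -- the map `f = (I - 1)(J - 1)`
  set f : AddMonoid.End A := (I * J - I) - (J - 1) with hf
  have fdef : ∀ x, f x = (I (J x) - I x) - (J x - x) := fun x => rfl
  have fI' : ∀ x, f (I' x) = I' (f x) := fun x => by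
    simp only [fdef, map_sub, hIa, hI'a, cI'Jx]
    rw [← cI'Jx x]
    simp only [hIa]
  have fJ' : ∀ x, f (J' x) = J' (f x) := fun x => by
    simp only [fdef, map_sub, hJa, hJ'a]
    rw [cIJ x, hJ'a]
    have e : I (J' x) = J' (I x) := by
      rw [← hJ'a (I (J' x)), ← cIJ, hJa]
    rw [e]
  have fsq : ∀ x, f (f x) = 0 → f x = 0 := by
    intro x hx
    -- `(I-1)^2 (J-1)^2 x = 0`
    set y := J (J x - x) - (J x - x) with hy
    have e1 : I (I y - y) - (I y - y) = 0 := by
      rw [← hx]
      simp only [hy, fdef, map_sub, cIJ]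
      abel
    have e2 : I y = y := hIfix y (sub_eq_zero.1 e1)
    set z := I x - x with hz
    have e3 : J (J z - z) - (J z - z) = 0 := by
      have : I y - y = J (J z - z) - (J z - z) := by
        simp only [hy, hz, map_sub, cIJ]
        abel
      rw [← this, e2, sub_self]
    have e4 : J z = z := hJfix z (sub_eq_zero.1 e3)
    have : f x = J z - z := by
      simp only [fdef, hz, map_sub, cIJ]
      abel
    rw [this, e4, sub_self]
  have fkill : ∀ x, s (s x) = x → f x = 0 := by
    intro x hx
    have h1 := hkill x hx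
    rw [map_sub] at h1
    rw [fdef, h1, sub_self]
  have uf : ∀ x, s (s (f x)) = f (I' (J' (s (s x)))) := by
    intro x
    rw [fI', fJ']
    simp only [fdef, map_sub, uI, uJ]
    generalize s (s x) = w
    have e : ∀ y, J' (I y) = I (J' y) := fun y => by
      rw [← hJ'a (I (J' y)), ← cIJ, hJa]
    simp only [e, cIJ, hJ'a, hI'a]
    abel
  have fneg : ∀ x, s (s (f x)) = -f x := by
    intro x
    have h1 : f (f (x + I' (J' (s (s x))))) = 0 := by
      apply fkill
      rw [map_add, ← uf, map_add, map_add, hs4, add_comm]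
    have h2 := fsq _ h1
    rw [map_add, ← uf] at h2
    exact (neg_eq_of_add_eq_zero_right h2).symm
  have fIJ : ∀ x, I (J (f x)) = f x := by
    intro x
    have h1 : f (s (s x) + x) = 0 := by
      apply fkill
      rw [map_add, map_add, hs4, add_comm]
    rw [map_add] at h1
    have h2 : f (s (s x)) = -f x := eq_neg_of_add_eq_zero_left h1
    have h3 := fneg x
    rw [uf, fI', fJ', h2, map_neg, map_neg, neg_inj] at h3
    conv_lhs => rw [← h3]
    rw [← cI'Jx, hJa, hIa]
  have sf : ∀ x, s (f x) = f (-(I' (s x))) := by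
    intro x
    rw [map_neg, fI']
    simp only [fdef, map_sub, sI, sJ, hI'a]
    rw [cI'Jx, ← cI'Jx (s x)]
    abel
  have f0 : ∀ x, f x = 0 := by
    intro x
    set b := s (s (s (-(I x)))) with hb
    have hb' : -(I' (s b)) = x := by rw [hb, hs4, map_neg, hI'a, neg_neg]
    have h1 := congrArg s (fIJ b)
    rw [sI, sJ, sf, hb'] at h1
    have h2 : J (f x) = I (f x) := by
      have h3 := congrArg I h1
      rwa [cIJ, hIa] at h3
    have h4 := fIJ x
    rw [h2] at h4
    have h5 : I (f x) = f x := hodd' _ h4
    have h6 : I (J x - x) = J x - x := by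
      refine hIfix _ ?_
      have e : f x = I (J x - x) - (J x - x) := by rw [fdef, map_sub]
      rw [← e, h5]
    rw [fdef, ← map_sub, h6, sub_self]
  -- now `I - 1` alone
  have gneg : ∀ x, s (s (I x - x)) = -(I x - x) := by
    intro x
    set b := x + -(I' (s (s x))) with hb
    set v := I b - b with hv
    have hv' : v = (I x - x) + s (s (I x - x)) := by
      simp only [hv, hb, map_add, map_neg, hIa, map_sub, uI]
      abel
    have hvfix : s (s v) = v := by rw [hv', map_add, map_add, hs4, add_comm]
    have hvs : v + s v = 0 := hfpf _ (by rw [map_add, hvfix, add_comm])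
    have hIv : I v = v := by
      have h1 : I (s v) - s v = 0 := by
        have h2 := f0 (s b)
        rw [fdef] at h2
        rw [hv, map_sub, map_sub, sI, ← h2]
      have h3 : v = -s v := eq_neg_of_add_eq_zero_left hvs
      rw [sub_eq_zero] at h1
      rw [h3, map_neg, h1]
    have hv0 : v = 0 := by rw [hv, hIfix b hIv, sub_self]
    rw [hv'] at hv0
    exact eq_neg_of_add_eq_zero_right hv0
  have h1 : I' (I a - a) = I (I a - a) := by
    have e1 := gneg (I a)
    rw [← map_sub, uI, gneg, map_neg, neg_inj] at e1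
    exact e1
  refine hIfix a (hodd' _ ?_)
  conv_lhs => rw [← h1]
  exact hIa _

end Cfsg.Agent.H23.OneClass
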