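import Cfsg.Agent.H23.OneClass.FpfFourOrbit
import Cfsg.Agent.H21.Fpf

/-!
# A fixed-point-free automorphism of order four forces solvability (Gorenstein–Herstein)

Every `p`-element inverted by `σ²` lies in the invariant Sylow `p`-subgroup, and a count shows
that inverted elements for different primes commute.
-/

set_option autoImplicit false
set_option linter.style.haveILetI false

namespace Cfsg.Agent.H23.OneClass

open Subgroup
open scoped Pointwise

universe u

variable {G : Type u} [Group G] [Finite G] {σ : MulAut G}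

/-- An invariant Sylow subgroup contains every invariant `p`-subgroup. -/
theorem IsFpfFour.le_invariant_sylow (hσ : IsFpfFour σ) {p : ℕ} [Fact p.Prime] (P : Sylow p G)
    (hP : ∀ x ∈ (P : Subgroup G), σ x ∈ (P : Subgroup G)) (Q : Subgroup G) (hQ : IsPGroup p Q)
    (hQσ : ∀ x ∈ Q, σ x ∈ Q) : Q ≤ (P : Subgroup G) := by
  classical
  let S : Set (Subgroup G) := {R | IsPGroup p R ∧ (∀ x ∈ R, σ x ∈ R) ∧ Q ≤ R}
  obtain ⟨M, ⟨hMp, hMσ, hQM⟩, hmax⟩ :=
    (Set.toFinite S).exists_maximal ⟨Q, hQ, hQσ, le_rfl⟩
  have hMmap : ∀ x, x ∈ M ↔ σ x ∈ M := by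
    intro x
    refine ⟨hMσ x, fun hx => ?_⟩
    have := hMσ _ (hMσ _ (hMσ _ hx))
    rwa [hσ.four] at this
  have hN : ∀ x ∈ normalizer (M : Set G), σ x ∈ normalizer (M : Set G) := by
    intro x hx
    rw [mem_normalizer_iff] at hx ⊢
    intro y
    obtain ⟨z, rfl⟩ := σ.surjective y
    rw [← map_inv, ← map_mul, ← map_mul, ← hMmap, ← hMmap]
    exact hx z
  obtain ⟨t, ht, hts⟩ := hσ.exists_restrict _ hN
  obtain ⟨P0, hP0⟩ := H21.exists_sylow_invariant (φ := (t : normalizer (M : Set G) ≃* _))
    (fun v hv => ht.fpf v hv) p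
  set R := (P0 : Subgroup (normalizer (M : Set G))).map (normalizer (M : Set G)).subtype with hR
  have hMR : M ≤ R := by
    have hMp' : IsPGroup p (M.subgroupOf (normalizer (M : Set G))) :=
      hMp.of_equiv (subgroupOfEquivOfLe le_normalizer).symm
    haveI : (M.subgroupOf (normalizer (M : Set G))).Normal := normal_in_normalizer
    have h1 : M.subgroupOf (normalizer (M : Set G)) ≤ P0 := by
      have h2 := IsPGroup.to_sup_of_normal_right P0.isPGroup' hMp'
      exact le_sup_right.trans (P0.is_maximal' h2 le_sup_left).le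
    intro x hx
    exact ⟨⟨x, le_normalizer hx⟩, h1 (by simpa [mem_subgroupOf] using hx), rfl⟩
  have hRS : R ∈ S := ⟨P0.isPGroup'.map _, by
    rintro _ ⟨v, hv, rfl⟩
    exact ⟨t v, hP0.le ⟨v, hv, rfl⟩, hts v⟩, hQM.trans hMR⟩
  have hRM : R ≤ M := hmax hRS hMR
  -- a `p`-subgroup equal to a Sylow subgroup of its normalizer is a Sylow subgroup
  have hMsyl : ∀ T : Subgroup G, IsPGroup p T → M ≤ T → T = M := by
    intro T hT hMT
    by_contra hne
    haveI := hT.isNilpotent
    have hlt : M.subgroupOf T < ⊤ := by
      rw [lt_top_iff_ne_top, Ne, subgroupOf_eq_top]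
      exact fun h => hne (le_antisymm h hMT)
    obtain ⟨x, hx, hx'⟩ := SetLike.exists_of_lt
      (Group.normalizerCondition_of_isNilpotent (G := T) (M.subgroupOf T) hlt)
    have hxN : (x : G) ∈ normalizer (M : Set G) := by
      rw [mem_normalizer_iff]
      intro y
      rw [mem_normalizer_iff] at hx
      constructor
      · intro hy
        have := (hx ⟨y, hMT hy⟩).1 (by simpa [mem_subgroupOf] using hy)
        simpa [mem_subgroupOf] using this
      · intro hy
        have hyT : y ∈ T := by
          have h1 : (x : G) * y * (x : G)⁻¹ ∈ T := hMT hy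
          have := mul_mem (mul_mem (inv_mem x.2) h1) x.2
          simpa [mul_assoc] using this
        have := (hx ⟨y, hyT⟩).2 (by simpa [mem_subgroupOf] using hy)
        simpa [mem_subgroupOf] using this
    haveI : (M.subgroupOf (normalizer (M : Set G))).Normal := normal_in_normalizer
    have hT' : IsPGroup p (T.subgroupOf (normalizer (M : Set G))) :=
      hT.of_injective ((normalizer (M : Set G)).subtype.comp
        (T.subgroupOf (normalizer (M : Set G))).subtype |>.codRestrict T fun v => v.2)
        (fun a b h => Subtype.ext (Subtype.ext (congrArg (fun z : T => (z : G)) h)))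
    obtain ⟨P1, hP1⟩ := hT'.exists_le_sylow
    have hc : Nat.card (P1 : Subgroup (normalizer (M : Set G))) = Nat.card M := by
      rw [Sylow.card_eq_multiplicity, ← Sylow.card_eq_multiplicity P0]
      exact (card_map_of_injective (subtype_injective _)).symm.trans
        (congrArg (fun R : Subgroup G => Nat.card R) (le_antisymm hRM hMR))
    have h1 : M.subgroupOf (normalizer (M : Set G)) ≤ P1 := fun v hv =>
      hP1 (by simpa [mem_subgroupOf] using hMT (mem_subgroupOf.1 hv))
    have h2 := eq_of_le_of_card_ge h1 (by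
      rw [hc, Nat.card_congr (subgroupOfEquivOfLe le_normalizer).toEquiv])
    have h3 : (⟨(x : G), hxN⟩ : normalizer (M : Set G)) ∈
        (P1 : Subgroup (normalizer (M : Set G))) := hP1 (by simp [mem_subgroupOf])
    rw [← h2, mem_subgroupOf] at h3
    exact hx' (by simpa [mem_subgroupOf] using h3)
  obtain ⟨P', hP'⟩ := hMp.exists_le_sylow
  have hP'M := hMsyl P' P'.isPGroup' hP'
  obtain ⟨g, hg⟩ := MulAction.exists_smul_eq G P P'
  -- `g` normalises `P`
  have hgN : g ∈ normalizer ((P : Subgroup G) : Set G) := by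
    have hσP : ∀ x, x ∈ (P : Subgroup G) ↔ σ x ∈ (P : Subgroup G) := by
      intro x
      refine ⟨hP x, fun hx => ?_⟩
      have := hP _ (hP _ (hP _ hx))
      rwa [hσ.four] at this
    refine H84.mem_of_fixed_coset σ hσ.fpf _ (fun n hn => ?_) g ?_
    · rw [mem_normalizer_iff] at hn ⊢
      intro y
      obtain ⟨z, rfl⟩ := σ.surjective y
      rw [← map_inv, ← map_mul, ← map_mul, ← hσP, ← hσP]
      exact hn z
    · have hmem : ∀ y, y ∈ M ↔ g⁻¹ * y * g ∈ (P : Subgroup G) := by
        intro y
        rw [← hP'M, ← hg]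
        show y ∈ MulAut.conj g • (P : Subgroup G) ↔ _
        rw [Subgroup.mem_pointwise_smul_iff_inv_smul_mem]
        simp [MulAut.smul_def, mul_assoc]
      rw [mem_normalizer_iff]
      intro y
      have h1 : y ∈ (P : Subgroup G) ↔ σ (g * (σ.symm y) * g⁻¹) ∈ M := by
        rw [← hMmap, hmem, show g⁻¹ * (g * σ.symm y * g⁻¹) * g = σ.symm y by group, hσP (σ.symm y),
          MulEquiv.apply_symm_apply]
      rw [h1, hmem]
      simp [map_mul, map_inv, mul_assoc]
  have : P = P' := by
    rw [← hg]
    exact (Sylow.smul_eq_iff_mem_normalizer.2 hgN).symm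
  calc Q ≤ M := hQM
    _ ≤ (P' : Subgroup G) := hP'
    _ = (P : Subgroup G) := by rw [this]

/-- Unique square roots in odd order. -/
theorem IsFpfFour.sq_inj (hσ : IsFpfFour σ) {a b : G} (h : a ^ 2 = b ^ 2) : a = b :=
  (powCoprime (G := G) (n := 2) (Nat.coprime_two_right.2 hσ.odd_card)).injective h

/-- The factorisation `G = H · I`. -/
theorem IsFpfFour.card_eq_fixed_mul_inverted (hσ : IsFpfFour σ) (P : Subgroup G)
    (hP : ∀ x ∈ P, σ x ∈ P) :
    Nat.card P = Nat.card {h : P // σ (σ (h : G)) = h} *
      Nat.card {i : P // σ (σ (i : G)) = (i : G)⁻¹} := by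
  rw [← Nat.card_prod]
  refine (Nat.card_congr (Equiv.ofBijective (fun x => (x.1.1 * x.2.1 : P)) ⟨?_, ?_⟩)).symm
  · rintro ⟨⟨h, hh⟩, ⟨i, hi⟩⟩ ⟨⟨h', hh'⟩, ⟨i', hi'⟩⟩ e
    have e1 : (h : G) * i = h' * i' := congrArg Subtype.val e
    have e2 := congrArg (fun z => σ (σ z)) e1
    simp only [map_mul, hh, hi, hh', hi'] at e2
    have e3 : (i : G) ^ 2 = (i' : G) ^ 2 := by
      have := congrArg₂ (fun a b : G => a⁻¹ * b) e2 e1
      simpa [sq, mul_assoc] using this
    have e4 := hσ.sq_inj e3
    rw [e4, mul_left_inj] at e1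
    exact Prod.ext (Subtype.ext (Subtype.ext e1)) (Subtype.ext (Subtype.ext e4))
  · intro g
    set τ := (g : G)⁻¹ * σ (σ g) with hτ
    have hτP : τ ∈ P := mul_mem (inv_mem g.2) (hP _ (hP _ g.2))
    obtain ⟨r, hr⟩ := (powCoprime (G := P) (n := 2) (Nat.coprime_two_right.2
      (hσ.odd_card.of_dvd_nat (card_subgroup_dvd_card P)))).surjective ⟨τ, hτP⟩
    have hr' : (r : G) ^ 2 = τ := by
      have := congrArg Subtype.val hr
      simpa [powCoprime] using this
    have hri : σ (σ (r : G)) = (r : G)⁻¹ := by
      refine hσ.sq_inj ?_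
      rw [← map_pow, ← map_pow, hr', inv_pow, hr', hτ]
      simp [hσ.four]
    refine ⟨⟨⟨g * r, ?_⟩, ⟨r⁻¹, by simp [hri]⟩⟩, by simp⟩
    have hg : σ (σ (g : G)) = g * r * r := by
      rw [mul_assoc, ← sq, hr', hτ, mul_inv_cancel_left]
    simp [hg, hri]

/-- The arithmetic of prime parts: `i` lies in any subgroup containing its cofactor powers. -/
theorem mem_of_cofactor_pows (M : Subgroup G) (i : G)
    (h : ∀ p ∈ (Nat.card G).primeFactors,
      i ^ (Nat.card G / p ^ (Nat.card G).factorization p) ∈ M) : i ∈ M := by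
  classical
  set n := Nat.card G with hn
  have hgcd : ∀ s : Finset ℕ, s ⊆ n.primeFactors →
      i ^ (s.gcd fun p => n / p ^ n.factorization p) ∈ M := by
    intro s
    induction s using Finset.induction_on with
    | empty => simp
    | insert a s ha ih =>
      intro hs
      rw [Finset.gcd_insert]
      have h1 := h a (hs (Finset.mem_insert_self a s))
      have h2 := ih fun x hx => hs (Finset.mem_insert_of_mem hx)
      rw [← zpow_natCast]
      show i ^ ((Nat.gcd _ _ : ℕ) : ℤ) ∈ M
      rw [Nat.gcd_eq_gcd_ab, zpow_add, zpow_mul, zpow_mul, zpow_natCast, zpow_natCast]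
      exact mul_mem (zpow_mem h1 _) (zpow_mem h2 _)
  rcases Nat.eq_or_lt_of_le (Nat.card_pos (α := G)) with h1 | h1
  · have : i = 1 := (Nat.card_eq_one_iff_unique.1 h1.symm).1.elim _ _
    rw [this]; exact one_mem M
  · have h2 := hgcd _ (Finset.Subset.refl _)
    rwa [show (n.primeFactors.gcd fun p => n / p ^ n.factorization p) = 1 from ?_, pow_one] at h2
    by_contra hne
    obtain ⟨r, hr, hrd⟩ := Nat.exists_prime_and_dvd hne
    obtain ⟨q, hq, hqd⟩ := Nat.exists_prime_and_dvd (show n ≠ 1 by omega)
    have hqm : q ∈ n.primeFactors := Nat.mem_primeFactors.2 ⟨hq, hqd, by omega⟩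
    have hrn : r ∈ n.primeFactors := Nat.mem_primeFactors.2 ⟨hr,
      (hrd.trans (Finset.gcd_dvd hqm)).trans (Nat.div_dvd_of_dvd (Nat.ordProj_dvd n q)), by omega⟩
    exact Nat.not_dvd_ordCompl hr (show n ≠ 0 by omega) (hrd.trans (Finset.gcd_dvd hrn))

/-- **Gorenstein–Herstein.** A finite group with an automorphism `σ`, `σ⁴ = 1`, fixing only the
identity is solvable. -/
theorem isSolvable_of_fpf_four : ∀ (n : ℕ) (G : Type u) [Group G] [Finite G] (σ : MulAut G),
    Nat.card G ≤ n → IsFpfFour σ → Group.IsSolvable G := by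
  intro n
  induction n with
  | zero => intro G _ _ σ hn; exact absurd hn (by have := Nat.card_pos (α := G); omega)
  | succ n ih =>
    intro G _ _ σ hn hσ
    classical
    haveI : Fintype G := Fintype.ofFinite G
    by_cases hcomm : ∀ a b : G, a * b = b * a
    · exact Group.isSolvable_of_comm hcomm
    -- proper invariant subgroups are solvable
    have hsub : ∀ M : Subgroup G, M ≠ ⊤ → (∀ x ∈ M, σ x ∈ M) → Group.IsSolvable M := by
      intro M hM hMσ
      obtain ⟨t, ht, -⟩ := hσ.exists_restrict M hMσ
      refine ih M t ?_ ht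
      have h1 : Nat.card M < Nat.card G := lt_of_le_of_ne (Subgroup.card_le_card_group M)
        fun e => hM (Subgroup.eq_top_of_card_eq M e)
      omega
    -- hence we may assume there is no proper invariant normal subgroup
    by_cases hN : ∃ N : Subgroup G, N.Normal ∧ (∀ x ∈ N, σ x ∈ N) ∧ N ≠ ⊥ ∧ N ≠ ⊤
    · obtain ⟨N, hNn, hNσ, hN0, hN1⟩ := hN
      haveI := hsub N hN1 hNσ
      obtain ⟨t, ht, -⟩ := hσ.exists_quotient N hNσ
      have hq : Group.IsSolvable (G ⧸ N) := ih _ t (by
        have h1 := card_eq_card_quotient_mul_card_subgroup N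
        have h2 : 2 ≤ Nat.card N := (N.one_lt_card_iff_ne_bot).2 hN0
        have h3 := Nat.card_pos (α := G ⧸ N)
        nlinarith) ht
      haveI := hq
      exact Group.isSolvable_of_ker_le_range N.subtype (QuotientGroup.mk' N)
        (by rw [QuotientGroup.ker_mk', range_subtype])
    push Not at hN
    have hZ : center G = ⊥ := by
      by_contra h
      have := hN (center G) inferInstance (fun x hx => (characteristic_iff_map_le.1 inferInstance σ)
        ⟨x, hx, rfl⟩) h
      exact hcomm fun a b => (mem_center_iff.1 (this ▸ mem_top b) a)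
    -- orbit groups are proper
    have hproper : ∀ i, σ (σ i) = i⁻¹ → orbitGroup σ i ≠ ⊤ := by
      intro i hi htop
      set A := closure {y | ∃ h, σ (σ h) = h ∧ y = h * i * h⁻¹} with hA
      have hB : ∀ b ∈ A, ∀ a ∈ A, a * σ b = σ b * a := by
        intro b hb a ha
        induction hb using closure_induction with
        | one => simp
        | mul b b' _ _ e e' => rw [map_mul, ← mul_assoc, e, mul_assoc, e', mul_assoc]
        | inv b _ e => rw [map_inv]; exact (Commute.inv_right e)
        | mem b hb =>
          obtain ⟨k, hk, rfl⟩ := hb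
          induction ha using closure_induction with
          | one => simp
          | mul a a' _ _ e e' => rw [mul_assoc, e', ← mul_assoc, e, mul_assoc]
          | inv a _ e => exact Commute.inv_left e
          | mem a ha =>
            obtain ⟨h, hh, rfl⟩ := ha
            have hsk : σ (σ (σ k)) = σ k := by rw [hk]
            have h1 := hσ.commute_conj hi (h := (σ k)⁻¹ * h)
              (by simp only [map_mul, map_inv, hsk, hh])
            have h2 := h1.map (MulAut.conj (σ k)).toMonoidHom
            simp only [MulEquiv.coe_toMonoidHom, MulAut.conj_apply] at h2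
            rw [map_mul, map_mul, map_inv]
            convert h2.eq using 2 <;> group
      have huA : ∀ a ∈ A, σ (σ a) ∈ A := by
        intro a ha
        induction ha using closure_induction with
        | one => simp
        | mul a b _ _ e e' => rw [map_mul, map_mul]; exact mul_mem e e'
        | inv a _ e => rw [map_inv, map_inv]; exact inv_mem e
        | mem a ha =>
          obtain ⟨h, hh, rfl⟩ := ha
          rw [hσ.inverted_conj hi hh]
          exact inv_mem (subset_closure ⟨h, hh, rfl⟩)
      have hgen : ∀ x : G, x ∈ A ⊔ A.map (σ : G ≃* G).toMonoidHom := by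
        intro x
        have hx : x ∈ orbitGroup σ i := htop ▸ mem_top x
        refine (closure_le _).2 ?_ hx
        rintro y ⟨h, hh, rfl | rfl⟩
        · exact mem_sup_left (subset_closure ⟨h, hh, rfl⟩)
        · refine mem_sup_right ⟨h⁻¹ * i * h⁻¹⁻¹, subset_closure ⟨h⁻¹, by simp [hh], rfl⟩, ?_⟩
          have hs := hσ.apply_eq_inv hh
          simp [hs]
      -- `σ²` inverts `A`, so `A` is abelian
      have hfix : ∀ a ∈ A, σ (σ a) = a → a = 1 := by
        intro a ha hua
        have h1 : a * σ a = 1 := hσ.fpf _ (by rw [map_mul, hua]; exact (hB a ha a ha).symm)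
        -- `a` is central
        have hc : A ⊔ A.map (σ : G ≃* G).toMonoidHom ≤ centralizer ({a} : Set G) := by
          refine sup_le (fun x hx => ?_) ?_
          · rw [mem_centralizer_singleton_iff]
            have h2 := hB a ha x hx
            rw [eq_inv_of_mul_eq_one_right h1] at h2
            exact Commute.inv_right_iff.1 h2
          · rintro _ ⟨x, hx, rfl⟩
            rw [mem_centralizer_singleton_iff]
            exact (hB x hx a ha).symm
        have : a ∈ center G := mem_center_iff.2 fun x =>
          mem_centralizer_singleton_iff.1 (hc (hgen x))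
        rwa [hZ, mem_bot] at this
      have hinvA : ∀ a : A, σ (σ (a : G)) = (a : G)⁻¹ := by
        intro a
        let t : A →* A := ((σ * σ : MulAut G).toMonoidHom.comp A.subtype).codRestrict A
          fun v => huA v v.2
        have ht : MonoidHom.FixedPointFree t := fun v hv =>
          Subtype.ext (hfix v v.2 (congrArg Subtype.val hv))
        have ht2 : Function.Involutive t := fun v => Subtype.ext (hσ.four v)
        exact congrArg Subtype.val (congrFun (MonoidHom.FixedPointFree.coe_eq_inv_of_involutive ht ht2) a)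
      have hAc : ∀ a ∈ A, ∀ b ∈ A, a * b = b * a := by
        intro a ha b hb
        have h1 := hinvA ⟨a * b, mul_mem ha hb⟩
        simp only [map_mul, hinvA ⟨a, ha⟩, hinvA ⟨b, hb⟩, mul_inv_rev] at h1
        apply inv_injective
        rw [mul_inv_rev, mul_inv_rev]
        exact h1.symm
      refine hcomm fun x y => ?_
      have hc : ∀ y, ∀ x ∈ A ⊔ A.map (σ : G ≃* G).toMonoidHom, x * y = y * x := by
        intro y
        have : A ⊔ A.map (σ : G ≃* G).toMonoidHom ≤ centralizer ({y} : Set G) := by
          refine sup_le (fun x hx => mem_centralizer_singleton_iff.2 ?_)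
            (map_le_iff_le_comap.2 fun x hx => mem_centralizer_singleton_iff.2 ?_)
          · have : A ⊔ A.map (σ : G ≃* G).toMonoidHom ≤ centralizer ({x} : Set G) := by
              refine sup_le (fun z hz => ?_) ?_
              · exact mem_centralizer_singleton_iff.2 (hAc z hz x hx)
              · rintro _ ⟨z, hz, rfl⟩
                exact mem_centralizer_singleton_iff.2 (hB z hz x hx).symm
            exact (mem_centralizer_singleton_iff.1 (this (hgen y))).symm
          · have : A ⊔ A.map (σ : G ≃* G).toMonoidHom ≤ centralizer ({σ x} : Set G) := by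
              refine sup_le (fun z hz => ?_) ?_
              · exact mem_centralizer_singleton_iff.2 (hB x hx z hz)
              · rintro _ ⟨z, hz, rfl⟩
                refine mem_centralizer_singleton_iff.2 ?_
                show σ z * σ x = σ x * σ z
                rw [← map_mul, ← map_mul, hAc z hz x hx]
            exact (mem_centralizer_singleton_iff.1 (this (hgen y))).symm
        exact fun x hx => mem_centralizer_singleton_iff.1 (this hx)
      exact hc y x (hgen x)
    -- the invariant Sylow subgroups
    have hsyl : ∀ p : ℕ, p.Prime → ∃ P : Sylow p G, ∀ x ∈ (P : Subgroup G), σ x ∈ (P : Subgroup G) := by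
      intro p hp
      haveI := Fact.mk hp
      obtain ⟨P, hP⟩ := H21.exists_sylow_invariant (φ := (σ : G ≃* G)) (fun v hv => hσ.fpf v hv) p
      exact ⟨P, fun x hx => hP.le ⟨x, hx, rfl⟩⟩
    choose P hP using hsyl
    -- inverted `p`-elements lie in the invariant Sylow subgroup, together with their orbit
    have hmemP : ∀ (p : ℕ) (hp : p.Prime) (i : G), σ (σ i) = i⁻¹ → (∃ k, orderOf i = p ^ k) →
        orbitGroup σ i ≤ (P p hp : Subgroup G) := by
      intro p hp i hi hk
      haveI := Fact.mk hp
      have hJσ : ∀ x ∈ orbitGroup σ i, σ x ∈ orbitGroup σ i := fun x hx =>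
        hσ.apply_mem_orbitGroup hi hx
      refine hσ.le_invariant_sylow _ (hP p hp) _ ?_ hJσ
      -- work inside `M = J H`, which is solvable
      let H : Subgroup G := MonoidHom.eqLocus (σ * σ : MulAut G).toMonoidHom (MonoidHom.id G)
      have hH : ∀ h, h ∈ H ↔ σ (σ h) = h := fun h => Iff.rfl
      set J := orbitGroup σ i with hJ
      haveI hJs : Group.IsSolvable J := hsub _ (hproper i hi) hJσ
      set M := J ⊔ H with hMdef
      have hHn : H ≤ normalizer (J : Set G) := by
        intro h hh
        rw [mem_normalizer_iff]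
        intro y
        refine ⟨fun hy => conj_mem_orbitGroup ((hH h).1 hh) hy, fun hy => ?_⟩
        have := conj_mem_orbitGroup (k := h⁻¹) (by rw [map_inv, map_inv, (hH h).1 hh]) hy
        simpa [mul_assoc] using this
      have hMn : M ≤ normalizer (J : Set G) := sup_le le_normalizer hHn
      have hMσ : ∀ x ∈ M, σ x ∈ M := by
        intro x hx
        have : M ≤ M.comap (σ : G ≃* G).toMonoidHom := sup_le
          (fun y hy => mem_sup_left (hJσ y hy))
          (fun y hy => mem_sup_right ((hH _).2 (congrArg σ ((hH y).1 hy))))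
        exact this hx
      haveI : (J.subgroupOf M).Normal :=
        (normal_subgroupOf_iff_le_normalizer (le_sup_left : J ≤ M)).mpr hMn
      haveI hMsol : Group.IsSolvable M := by
        have hJ' : Group.IsSolvable (J.subgroupOf M) :=
          Group.isSolvable_of_surjective (f := (subgroupOfEquivOfLe (le_sup_left : J ≤ M)).symm.toMonoidHom)
            (MulEquiv.surjective _)
        haveI := hJ'
        have hq : Group.IsSolvable (M ⧸ J.subgroupOf M) := by
          refine Group.isSolvable_of_comm fun a b => ?_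
          have hrep : ∀ a : M ⧸ J.subgroupOf M, ∃ h : M, (h : G) ∈ H ∧
              (h : M ⧸ J.subgroupOf M) = a := by
            intro a
            induction a using QuotientGroup.induction_on with
            | H m =>
              have hm : (m : G) ∈ J ⊔ H := m.2
              rw [sup_comm, ← SetLike.mem_coe, coe_mul_of_left_le_normalizer_right H J hHn,
                Set.mem_mul] at hm
              obtain ⟨h, hh, j, hj, e⟩ := hm
              refine ⟨⟨h, mem_sup_right hh⟩, hh, ?_⟩
              rw [QuotientGroup.eq, mem_subgroupOf]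
              simpa [← e] using hj
          obtain ⟨h, hh, rfl⟩ := hrep a
          obtain ⟨k, hk, rfl⟩ := hrep b
          rw [← QuotientGroup.mk_mul, ← QuotientGroup.mk_mul]
          exact congrArg QuotientGroup.mk (Subtype.ext (hσ.commute_fixed ((hH _).1 hh) ((hH _).1 hk)))
        haveI := hq
        exact Group.isSolvable_of_ker_le_range (J.subgroupOf M).subtype
          (QuotientGroup.mk' (J.subgroupOf M)) (by rw [QuotientGroup.ker_mk', range_subtype])
      obtain ⟨t, ht, hts⟩ := hσ.exists_restrict M hMσ
      have hiM : i ∈ M := mem_sup_left (self_mem_orbitGroup σ i)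
      have := isPGroup_orbitGroup (Nat.card M) M t le_rfl ht hMsol p hp ⟨i, hiM⟩
        (Subtype.ext (by rw [hts, hts]; exact hi)) (by rw [orderOf_mk]; exact hk)
      refine (this.map M.subtype).to_le ?_
      rw [hJ, orbitGroup, orbitGroup, MonoidHom.map_closure]
      refine closure_mono ?_
      rintro y ⟨h, hh, e⟩
      have hhM : h ∈ M := mem_sup_right ((hH h).2 hh)
      rcases e with rfl | rfl
      · exact ⟨⟨h, hhM⟩ * ⟨i, hiM⟩ * ⟨h, hhM⟩⁻¹,
          ⟨⟨h, hhM⟩, Subtype.ext (by rw [hts, hts]; exact hh), Or.inl rfl⟩, rfl⟩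
      · exact ⟨⟨h, hhM⟩ * t ⟨i, hiM⟩ * ⟨h, hhM⟩⁻¹,
          ⟨⟨h, hhM⟩, Subtype.ext (by rw [hts, hts]; exact hh), Or.inr rfl⟩,
          by simp [hts]⟩
    -- the inverted elements of each Sylow subgroup
    set ν := Nat.card G with hν
    let Hs : Subgroup G := MonoidHom.eqLocus (σ * σ : MulAut G).toMonoidHom (MonoidHom.id G)
    let c : ℕ → ℕ := fun p => ν / p ^ ν.factorization p
    have hpk : ∀ p ∈ ν.primeFactors, ∀ i : G, ∃ k, orderOf (i ^ c p) = p ^ k := by
      intro p hp i
      have hd : orderOf (i ^ c p) ∣ p ^ ν.factorization p := by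
        apply orderOf_dvd_of_pow_eq_one
        rw [← pow_mul, mul_comm, Nat.ordProj_mul_ordCompl_eq_self, hν, pow_card_eq_one']
      obtain ⟨k, -, hk⟩ := (Nat.dvd_prime_pow (Nat.prime_of_mem_primeFactors hp)).1 hd
      exact ⟨k, hk⟩
    have hpowinv : ∀ (i : G) (m : ℕ), σ (σ i) = i⁻¹ → σ (σ (i ^ m)) = (i ^ m)⁻¹ := fun i m hi => by
      rw [map_pow, map_pow, hi, inv_pow]
    let Ip : ν.primeFactors → Type u := fun p =>
      {i : (P p (Nat.prime_of_mem_primeFactors p.2) : Subgroup G) // σ (σ (i : G)) = (i : G)⁻¹}
    let Φ : {i : G // σ (σ i) = i⁻¹} → ∀ p, Ip p := fun i p =>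
      ⟨⟨i.1 ^ c p, hmemP p _ _ (hpowinv _ _ i.2) (hpk p p.2 i.1) (self_mem_orbitGroup σ _)⟩,
        hpowinv _ _ i.2⟩
    have hΦinj : Function.Injective Φ := by
      rintro ⟨i, hi⟩ ⟨j, hj⟩ e
      apply Subtype.ext
      -- the exponents on which `i` and `j` agree
      have hc' : ∀ p ∈ ν.primeFactors, i ^ c p = j ^ c p := fun p hp =>
        congrArg (fun z : Ip ⟨p, hp⟩ =>
          ((z.1 : (P p (Nat.prime_of_mem_primeFactors hp) : Subgroup G)) : G)) (congrFun e ⟨p, hp⟩)
      have key : ∀ s : Finset ℕ, s ⊆ ν.primeFactors → i ^ (s.gcd c) = j ^ (s.gcd c) := by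
        intro s
        induction s using Finset.induction_on with
        | empty => simp
        | insert a s ha IH =>
          intro hs
          rw [Finset.gcd_insert, ← zpow_natCast i, ← zpow_natCast j]
          show i ^ ((Nat.gcd _ _ : ℕ) : ℤ) = j ^ ((Nat.gcd _ _ : ℕ) : ℤ)
          rw [Nat.gcd_eq_gcd_ab, zpow_add, zpow_add, zpow_mul, zpow_mul, zpow_mul, zpow_mul,
            zpow_natCast, zpow_natCast, zpow_natCast, zpow_natCast,
            hc' a (hs (Finset.mem_insert_self a s)),
            IH fun x hx => hs (Finset.mem_insert_of_mem hx)]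
      rcases Nat.eq_or_lt_of_le (Nat.card_pos (α := G)) with h1 | h1
      · exact (Nat.card_eq_one_iff_unique.1 h1.symm).1.elim _ _
      have hg : ν.primeFactors.gcd c = 1 := by
        by_contra hne
        obtain ⟨r, hr, hrd⟩ := Nat.exists_prime_and_dvd hne
        obtain ⟨q, hq, hqd⟩ := Nat.exists_prime_and_dvd (show ν ≠ 1 by omega)
        have hqm : q ∈ ν.primeFactors := Nat.mem_primeFactors.2 ⟨hq, hqd, by omega⟩
        have hrn : r ∈ ν.primeFactors := Nat.mem_primeFactors.2 ⟨hr,
          (hrd.trans (Finset.gcd_dvd hqm)).trans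
            (Nat.div_dvd_of_dvd (Nat.ordProj_dvd ν q)), by omega⟩
        exact Nat.not_dvd_ordCompl hr (show ν ≠ 0 by omega) (hrd.trans (Finset.gcd_dvd hrn))
      have h2 := key _ (Finset.Subset.refl _)
      rwa [hg, pow_one, pow_one] at h2
    have hHcard : ∀ (p : ν.primeFactors),
        Nat.card {h : (P p (Nat.prime_of_mem_primeFactors p.2) : Subgroup G) //
          σ (σ (h : G)) = h} = (p : ℕ) ^ (Nat.card Hs).factorization p := by
      intro p
      have hpp := Nat.prime_of_mem_primeFactors p.2
      haveI := Fact.mk hpp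
      obtain ⟨Q⟩ : Nonempty (Sylow (p : ℕ) Hs) := inferInstance
      have hQP : (Q : Subgroup Hs).map Hs.subtype ≤ (P p hpp : Subgroup G) := by
        refine hσ.le_invariant_sylow _ (hP p hpp) _ (Q.isPGroup'.map _) ?_
        rintro _ ⟨v, hv, rfl⟩
        refine ⟨v⁻¹, inv_mem hv, ?_⟩
        exact (hσ.apply_eq_inv v.2).symm
      rw [← Sylow.card_eq_multiplicity Q]
      have hle : (Q : Subgroup Hs) ≤ (P p hpp : Subgroup G).subgroupOf Hs :=
        fun v hv => hQP ⟨v, hv, rfl⟩
      have heq : (Q : Subgroup Hs) = (P p hpp : Subgroup G).subgroupOf Hs :=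
        (Q.is_maximal' ((P p hpp).isPGroup'.of_injective
          ((Hs.subtype.comp ((P p hpp : Subgroup G).subgroupOf Hs).subtype).codRestrict _
            fun v => v.2)
          (fun a b h => Subtype.ext (Subtype.ext (congrArg (fun z : (P p hpp : Subgroup G) => (z : G)) h))))
          hle).symm
      rw [heq]
      exact Nat.card_congr
        { toFun := fun h => ⟨⟨h.1, h.2⟩, h.1.2⟩
          invFun := fun h => ⟨⟨h.1.1, h.2⟩, h.1.2⟩
          left_inv := fun _ => rfl
          right_inv := fun _ => rfl }
    have hΦ : Function.Bijective Φ := by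
      haveI : ∀ p, Finite (Ip p) := fun p => Subtype.finite
      refine (Nat.bijective_iff_injective_and_card Φ).2 ⟨hΦinj, ?_⟩
      rw [Nat.card_pi]
      -- compare the factorisations
      have hG : ν = Nat.card Hs * Nat.card {i : G // σ (σ i) = i⁻¹} := by
        have h1 := hσ.card_eq_fixed_mul_inverted ⊤ (fun x _ => mem_top _)
        rw [card_top, ← hν] at h1
        rw [h1]
        congr 1
        · exact Nat.card_congr (Equiv.subtypeEquiv topEquiv.toEquiv fun _ => Iff.rfl)
        · exact Nat.card_congr (Equiv.subtypeEquiv topEquiv.toEquiv fun _ => Iff.rfl)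
      have hHpos : Nat.card Hs ≠ 0 := Nat.card_pos.ne'
      have hdvd : Nat.card Hs ∣ ν := hν ▸ card_subgroup_dvd_card Hs
      have hHprod : ∏ p : ν.primeFactors, (p : ℕ) ^ (Nat.card Hs).factorization p = Nat.card Hs := by
        rw [Finset.prod_coe_sort ν.primeFactors fun p => p ^ (Nat.card Hs).factorization p]
        refine Eq.trans ?_ (Nat.prod_factorization_pow_eq_self hHpos)
        rw [Nat.prod_factorization_eq_prod_primeFactors]
        refine (Finset.prod_subset (Nat.primeFactors_mono hdvd (hν ▸ Nat.card_pos.ne')) ?_).symm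
        intro x _ hx
        rw [← Nat.support_factorization, Finsupp.notMem_support_iff] at hx
        rw [hx, pow_zero]
      have hGprod : ∏ p : ν.primeFactors, (p : ℕ) ^ ν.factorization p = ν := by
        rw [Finset.prod_coe_sort ν.primeFactors fun p => p ^ ν.factorization p]
        refine Eq.trans ?_ (Nat.prod_factorization_pow_eq_self (hν ▸ Nat.card_pos.ne' : ν ≠ 0))
        rw [Nat.prod_factorization_eq_prod_primeFactors]
      have key : ∀ p : ν.primeFactors,
          (p : ℕ) ^ (Nat.card Hs).factorization p * Nat.card (Ip p) =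
            (p : ℕ) ^ ν.factorization p := by
        intro p
        have hpp := Nat.prime_of_mem_primeFactors p.2
        haveI := Fact.mk hpp
        rw [← hHcard p, ← hσ.card_eq_fixed_mul_inverted _ (hP p hpp), Sylow.card_eq_multiplicity]
      have h2 : Nat.card Hs * ∏ p, Nat.card (Ip p) = ν := by
        conv_lhs => rw [← hHprod]
        rw [← Finset.prod_mul_distrib]
        simp only [key]
        exact hGprod
      exact Nat.eq_of_mul_eq_mul_left Nat.card_pos (hG.symm.trans h2.symm)
    -- inverted elements of different primes commute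
    have hcomm' : ∀ (p q : ν.primeFactors) (x : Ip p) (y : Ip q), (p : ℕ) ≠ q →
        Commute (x.1 : G) (y.1 : G) := by
      intro p q x y hpq
      let one' : ∀ r, Ip r := fun r => ⟨1, by simp⟩
      obtain ⟨i, hi⟩ := hΦ.surjective
        (Function.update (Function.update one' p x) q y)
      have h1 := congrArg (fun z => ((z.1 : (P q (Nat.prime_of_mem_primeFactors q.2) : Subgroup G)) : G))
        (congrFun hi q)
      have h2 := congrArg (fun z => ((z.1 : (P p (Nat.prime_of_mem_primeFactors p.2) : Subgroup G)) : G))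
        (congrFun hi p)
      have hne : p ≠ q := fun e => hpq (congrArg Subtype.val e)
      simp only [Function.update_self, Function.update_of_ne hne] at h1 h2
      rw [← h1, ← h2]
      exact (Commute.refl i.1).pow_pow _ _
    -- the subgroups generated by the inverted elements of one Sylow subgroup are normal
    have hKbot : ∀ (p : ℕ) (hp : p ∈ ν.primeFactors) (x : Ip ⟨p, hp⟩), (x.1 : G) = 1 := by
      intro p hp x
      have hpp := Nat.prime_of_mem_primeFactors hp
      haveI := Fact.mk hpp
      set P0 := (P p hpp : Subgroup G) with hP0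
      set S := {y : G | y ∈ P0 ∧ σ (σ y) = y⁻¹} with hS
      set K := closure S with hK
      have hKP : K ≤ P0 := (closure_le _).2 fun y hy => hy.1
      have hKσ : ∀ y ∈ K, σ y ∈ K := by
        intro y hy
        have : K ≤ K.comap (σ : G ≃* G).toMonoidHom := (closure_le _).2 fun z hz =>
          subset_closure ⟨hP p hpp z hz.1, hσ.inverted_apply hz.2⟩
        exact this hy
      have hconjS : ∀ (g : G), (∀ y ∈ S, g * y * g⁻¹ ∈ K) → g ∈ normalizer (K : Set G) := by
        intro g hg
        have h1 : K.map (MulAut.conj g).toMonoidHom ≤ K := by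
          rw [hK, MonoidHom.map_closure, closure_le]
          rintro _ ⟨y, hy, rfl⟩
          exact hg y hy
        rw [mem_normalizer_iff]
        intro y
        refine ⟨fun hy => h1 ⟨y, hy, rfl⟩, fun hy => ?_⟩
        have h2 := eq_of_le_of_card_ge h1 (card_map_of_injective (MulAut.conj g).injective).ge
        have hy : g * y * g⁻¹ ∈ K := hy
        rw [← h2] at hy
        obtain ⟨z, hz, e⟩ := hy
        have : z = y := (MulAut.conj g).injective e
        exact this ▸ hz
      have hnorm : ∀ g : G, g ∈ normalizer (K : Set G) := by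
        intro g
        -- `g = h i`
        obtain ⟨⟨h, i⟩, e⟩ : ∃ hi : {h : G // σ (σ h) = h} × {i : G // σ (σ i) = i⁻¹},
            hi.1.1 * hi.2.1 = g := by
          set τ := g⁻¹ * σ (σ g) with hτ
          obtain ⟨r, hr⟩ := (powCoprime (G := G) (n := 2)
            (Nat.coprime_two_right.2 hσ.odd_card)).surjective τ
          have hr' : r ^ 2 = τ := hr
          have hri : σ (σ r) = r⁻¹ := by
            refine hσ.sq_inj ?_
            rw [← map_pow, ← map_pow, hr', inv_pow, hr', hτ]
            simp [hσ.four]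
          refine ⟨⟨⟨g * r, ?_⟩, ⟨r⁻¹, by simp [hri]⟩⟩, by simp⟩
          have hg : σ (σ g) = g * r * r := by
            rw [mul_assoc, ← sq, hr', hτ, mul_inv_cancel_left]
          simp [hg, hri]
        rw [← e]
        refine mul_mem (hconjS _ ?_) (mem_of_cofactor_pows _ _ fun q hq => ?_)
        · intro y hy
          obtain ⟨k, hk⟩ := IsPGroup.iff_orderOf.1 (P p hpp).isPGroup' ⟨y, hy.1⟩
          rw [orderOf_mk] at hk
          refine subset_closure ⟨hmemP p hpp y hy.2 ⟨k, hk⟩ ?_, hσ.inverted_conj hy.2 h.2⟩
          exact subset_closure ⟨h.1, h.2, Or.inl rfl⟩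
        · by_cases hqp : q = p
          · subst hqp
            exact le_normalizer (subset_closure ⟨(Φ i ⟨q, hq⟩).1.2, hpowinv _ _ i.2⟩)
          · refine hconjS _ fun y hy => ?_
            have := hcomm' ⟨q, hq⟩ ⟨p, hp⟩ (Φ i ⟨q, hq⟩) ⟨⟨y, hy.1⟩, hy.2⟩ hqp
            rw [show ((Φ i ⟨q, hq⟩).1 : G) = i.1 ^ c q from rfl] at this
            show i.1 ^ c q * y * (i.1 ^ c q)⁻¹ ∈ K
            rw [this.eq, mul_inv_cancel_right]
            exact subset_closure hy
      haveI hKn : K.Normal := normalizer_eq_top_iff.1 (eq_top_iff.2 fun g _ => hnorm g)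
      by_contra hx
      have hK0 : K ≠ ⊥ := fun h => hx (by
        have : (x.1 : G) ∈ K := subset_closure ⟨x.1.2, x.2⟩
        rwa [h, mem_bot] at this)
      have hKtop := hN K hKn hKσ hK0
      have hPt : IsPGroup p G := by
        have : IsPGroup p (⊤ : Subgroup G) := hKtop ▸ (P p hpp).isPGroup'.to_le hKP
        exact this.of_equiv topEquiv
      haveI := hPt.isNilpotent
      -- a nilpotent group has nontrivial centre
      have : Nontrivial G := nontrivial_of_ne _ _ hx
      exact Group.IsNilpotent.center_ne_bot G hZ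
    -- so `G` consists of fixed points
    exfalso
    refine hcomm fun a b => ?_
    have hfix : ∀ g : G, σ (σ g) = g := by
      intro g
      set τ := g⁻¹ * σ (σ g) with hτ
      have hτi : σ (σ τ) = τ⁻¹ := by
        rw [hτ]; simp [hσ.four]
      have : τ = 1 := by
        have := mem_of_cofactor_pows ⊥ τ fun p hp => by
          rw [mem_bot]
          exact hKbot p hp ⟨⟨τ ^ c p, hmemP p _ _ (hpowinv _ _ hτi) (hpk p hp τ)
            (self_mem_orbitGroup σ _)⟩, hpowinv _ _ hτi⟩
        simpa using this
      exact (inv_mul_eq_one.1 this).symm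
    exact hσ.commute_fixed (hfix a) (hfix b)

end Cfsg.Agent.H23.OneClass
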