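import Cfsg.Agent.H23.OneClass.CubicModule
import Cfsg.Agent.H84.FpfFour

/-!
# Fixed-point-free automorphisms of order four: inverted elements

`σ` has order dividing four and fixes only `1`.  For `i` inverted by `σ²`, the element `σ i`
commutes with every conjugate of `i` under the fixed subgroup of `σ²`; if the group is solvable
and `i` is a `p`-element, these conjugates generate a `p`-group.
-/

set_option autoImplicit false
set_option linter.style.haveILetI false
set_option linter.unusedSectionVars false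
set_option linter.unusedVariables false

namespace Cfsg.Agent.H23.OneClass

open Subgroup

universe u

variable {G : Type u} [Group G]

/-- `σ⁴ = 1` and no nontrivial fixed points. -/
structure IsFpfFour (σ : MulAut G) : Prop where
  four : ∀ x, σ (σ (σ (σ x))) = x
  fpf : ∀ x, σ x = x → x = 1

/-- Generators: conjugates of `i` and `σ i` under the fixed points of `σ²`. -/
def orbitSet (σ : MulAut G) (i : G) : Set G :=
  {y | ∃ h, σ (σ h) = h ∧ (y = h * i * h⁻¹ ∨ y = h * σ i * h⁻¹)}

/-- The subgroup they generate. -/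
def orbitGroup (σ : MulAut G) (i : G) : Subgroup G := closure (orbitSet σ i)

theorem IsFpfFour.pow_four {σ : MulAut G} (hσ : IsFpfFour σ) : σ ^ 4 = 1 := by
  refine MulEquiv.ext fun x => ?_
  simpa [pow_succ, MulAut.mul_apply] using hσ.four x

variable [Finite G] {σ : MulAut G}

theorem IsFpfFour.odd_card (hσ : IsFpfFour σ) : Odd (Nat.card G) :=
  H84.odd_card_of_fpf_four σ hσ.pow_four hσ.fpf

theorem IsFpfFour.odd_orderOf (hσ : IsFpfFour σ) (g : G) : Odd (orderOf g) :=
  hσ.odd_card.of_dvd_nat (orderOf_dvd_natCard g)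

/-- The defining identity. -/
theorem IsFpfFour.prod_eq_one (hσ : IsFpfFour σ) (g : G) :
    g * σ g * σ (σ g) * σ (σ (σ g)) = 1 := by
  obtain ⟨a, rfl⟩ := H84.exists_inv_mul_eq σ hσ.fpf g
  simp only [map_mul, map_inv]
  simp only [mul_assoc, mul_inv_cancel_left, hσ.four, inv_mul_cancel]

/-- An element fixed by `σ²` is inverted by `σ`. -/
theorem IsFpfFour.apply_eq_inv (hσ : IsFpfFour σ) {h : G} (hh : σ (σ h) = h) : σ h = h⁻¹ := by
  have h1 := hσ.fpf (σ h * h) ?_
  · exact eq_inv_of_mul_eq_one_left h1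
  · -- `h` and `σ h` commute by the identity
    have h2 := hσ.prod_eq_one h
    rw [hh] at h2
    -- `(h σh)^2 = 1` in a group of odd order
    have h3 : h * σ h = 1 := by
      have h4 : (h * σ h) ^ 2 = 1 := by rw [sq, ← mul_assoc]; exact h2
      obtain ⟨k, hk⟩ := hσ.odd_orderOf (h * σ h)
      have h5 := pow_orderOf_eq_one (h * σ h)
      rwa [hk, pow_add, pow_mul, h4, one_pow, one_mul, pow_one] at h5
    rw [map_mul, hh, h3, mul_eq_one_comm.1 h3]

/-- The fixed points of `σ²` commute. -/
theorem IsFpfFour.commute_fixed (hσ : IsFpfFour σ) {h k : G} (hh : σ (σ h) = h)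
    (hk : σ (σ k) = k) : h * k = k * h := by
  have h1 : σ (σ (h * k)) = h * k := by rw [map_mul, map_mul, hh, hk]
  have h2 := hσ.apply_eq_inv h1
  rw [map_mul, hσ.apply_eq_inv hh, hσ.apply_eq_inv hk, mul_inv_rev] at h2
  apply inv_injective
  rw [mul_inv_rev, mul_inv_rev]
  exact h2.symm

/-- An inverted element commutes with its image. -/
theorem IsFpfFour.commute_image (hσ : IsFpfFour σ) {i : G} (hi : σ (σ i) = i⁻¹) :
    Commute i (σ i) := by
  have h1 := hσ.prod_eq_one i
  rw [hi, map_inv] at h1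
  have h2 : i * σ i * i⁻¹ = σ i := mul_inv_eq_one.1 h1
  exact mul_inv_eq_iff_eq_mul.1 h2

/-- `σ i` commutes with every fixed conjugate of `i`. -/
theorem IsFpfFour.commute_conj (hσ : IsFpfFour σ) {i h : G} (hi : σ (σ i) = i⁻¹)
    (hh : σ (σ h) = h) : Commute (h * i * h⁻¹) (σ i) := by
  have h1 := hσ.prod_eq_one (h * i)
  have hs := hσ.apply_eq_inv hh
  simp only [map_mul, hs, hi, map_inv, inv_inv] at h1
  have h2 : h * i * h⁻¹ * σ i * (h * i * h⁻¹)⁻¹ * (σ i)⁻¹ = 1 := by
    rw [← h1]; group
  have h3 := mul_inv_eq_one.1 h2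
  exact mul_inv_eq_iff_eq_mul.1 h3

theorem IsFpfFour.inverted_conj (hσ : IsFpfFour σ) {i h : G} (hi : σ (σ i) = i⁻¹)
    (hh : σ (σ h) = h) : σ (σ (h * i * h⁻¹)) = (h * i * h⁻¹)⁻¹ := by
  simp only [map_mul, map_inv, hh, hi]; group

theorem IsFpfFour.inverted_apply (_hσ : IsFpfFour σ) {i : G} (hi : σ (σ i) = i⁻¹) :
    σ (σ (σ i)) = (σ i)⁻¹ := by rw [hi, map_inv]

theorem conj_mem_orbitGroup {i k x : G} (hk : σ (σ k) = k) (hx : x ∈ orbitGroup σ i) :
    k * x * k⁻¹ ∈ orbitGroup σ i := by
  unfold orbitGroup at hx ⊢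
  induction hx using closure_induction with
  | mem y hy =>
    obtain ⟨h, hh, e⟩ := hy
    refine subset_closure ⟨k * h, by rw [map_mul, map_mul, hk, hh], ?_⟩
    rcases e with rfl | rfl
    · left; group
    · right; group
  | one => simp
  | mul a b _ _ ha hb => simpa [mul_assoc] using mul_mem ha hb
  | inv a _ ha => simpa [mul_assoc] using inv_mem ha

theorem IsFpfFour.apply_mem_orbitGroup (hσ : IsFpfFour σ) {i x : G} (hi : σ (σ i) = i⁻¹)
    (hx : x ∈ orbitGroup σ i) : σ x ∈ orbitGroup σ i := by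
  unfold orbitGroup at hx ⊢
  induction hx using closure_induction with
  | mem y hy =>
    obtain ⟨h, hh, e⟩ := hy
    rcases e with rfl | rfl
    · refine subset_closure ⟨σ h, by rw [hh], Or.inr ?_⟩
      simp only [map_mul, map_inv]
    · have : σ (h * σ i * h⁻¹) = (σ h * i * (σ h)⁻¹)⁻¹ := by
        simp only [map_mul, map_inv, hi]; group
      rw [this]
      exact inv_mem (subset_closure ⟨σ h, by rw [hh], Or.inl rfl⟩)
  | one => simp
  | mul a b _ _ ha hb => rw [map_mul]; exact mul_mem ha hb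
  | inv a _ ha => rw [map_inv]; exact inv_mem ha

theorem self_mem_orbitGroup (σ : MulAut G) (i : G) : i ∈ orbitGroup σ i :=
  subset_closure ⟨1, by simp, Or.inl (by simp)⟩

/-- Quotient by an invariant normal subgroup. -/
theorem IsFpfFour.exists_quotient (hσ : IsFpfFour σ) (N : Subgroup G) [N.Normal]
    (hN : ∀ n ∈ N, σ n ∈ N) :
    ∃ s : MulAut (G ⧸ N), IsFpfFour s ∧ ∀ g : G, s (g : G ⧸ N) = ((σ g : G) : G ⧸ N) := by
  have hmap : N.map (σ : G ≃* G).toMonoidHom = N :=
    eq_of_le_of_card_ge (by rintro _ ⟨n, hn, rfl⟩; exact hN n hn)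
      (card_map_of_injective σ.injective).ge
  refine ⟨QuotientGroup.congr N N σ hmap, ⟨fun x => ?_, fun x hx => ?_⟩, fun g => rfl⟩
  · induction x using QuotientGroup.induction_on with
    | H g => exact congrArg QuotientGroup.mk (hσ.four g)
  · induction x using QuotientGroup.induction_on with
    | H g =>
      rw [QuotientGroup.eq_one_iff]
      exact H84.mem_of_fixed_coset σ hσ.fpf N hN g (QuotientGroup.eq.1 hx.symm)

/-- Restriction to an invariant subgroup. -/
theorem IsFpfFour.exists_restrict (hσ : IsFpfFour σ) (N : Subgroup G) (hN : ∀ n ∈ N, σ n ∈ N) :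
    ∃ s : MulAut N, IsFpfFour s ∧ ∀ v : N, ((s v : N) : G) = σ v := by
  obtain ⟨s, hs⟩ := H84.exists_restrict σ N hN
  exact ⟨s, ⟨fun x => Subtype.ext (by simp only [hs, hσ.four]),
    fun x hx => Subtype.ext (hσ.fpf x (by rw [← hs, hx]))⟩, hs⟩

/-- Inside an abelian invariant normal subgroup of coprime order an inverted element acts
trivially. -/
theorem IsFpfFour.centralizes (hσ : IsFpfFour σ) {i : G} (hi : σ (σ i) = i⁻¹) (N : Subgroup G)
    [N.Normal] [IsMulCommutative N] (hN : ∀ n ∈ N, σ n ∈ N)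
    (hcop : (orderOf i).Coprime (Nat.card N)) {n : G} (hn : n ∈ N) : i * n = n * i := by
  obtain ⟨t, ht, hts⟩ := hσ.exists_restrict N hN
  letI : CommGroup N :=
    { (inferInstance : Group N) with mul_comm := fun a b => IsMulCommutative.is_comm.comm a b }
  let c : G → AddMonoid.End (Additive N) := fun g =>
    MonoidHom.toAdditive (MulAut.conjNormal g : N ≃* N).toMonoidHom
  have hc : ∀ g g', c (g * g') = c g * c g' := fun g g' => by
    refine DFunLike.ext _ _ fun w => ?_
    exact congrArg Additive.ofMul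
      (DFunLike.congr_fun (map_mul (MulAut.conjNormal : G →* MulAut N) g g') (Additive.toMul w))
  have hc1 : c 1 = 1 := by
    refine DFunLike.ext _ _ fun w => ?_
    exact congrArg Additive.ofMul
      (DFunLike.congr_fun (map_one (MulAut.conjNormal : G →* MulAut N)) (Additive.toMul w))
  let C : G →* AddMonoid.End (Additive N) := { toFun := c, map_one' := hc1, map_mul' := hc }
  let s : AddMonoid.End (Additive N) := MonoidHom.toAdditive (t : N ≃* N).toMonoidHom
  have hval : ∀ (g : G) (m : N),
      ((Additive.toMul (C g (Additive.ofMul m)) : N) : G) = g * m * g⁻¹ := fun g m =>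
    MulAut.conjNormal_apply g m
  have hsC : ∀ g, s * C g = C (σ g) * s := by
    intro g
    refine DFunLike.ext _ _ fun w => ?_
    obtain ⟨m, rfl⟩ := Additive.ofMul.surjective w
    apply Additive.toMul.injective
    apply Subtype.ext
    show ((t (MulAut.conjNormal g m) : N) : G) = ((MulAut.conjNormal (σ g) (t m) : N) : G)
    rw [hts, MulAut.conjNormal_apply, MulAut.conjNormal_apply, hts, map_mul, map_mul, map_inv]
  have hcomm := hσ.commute_image hi
  set o := orderOf i with ho
  have hio : i ^ o = 1 := pow_orderOf_eq_one i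
  have hjo : σ i ^ o = 1 := by rw [← map_pow, hio, map_one]
  have key := apply_eq_of_twisted (o := o) s (C i) (C i⁻¹) (C (σ i)) (C (σ i)⁻¹)
    (by rw [← map_mul, inv_mul_cancel, map_one]) (by rw [← map_mul, mul_inv_cancel, map_one])
    (by rw [← map_mul, inv_mul_cancel, map_one]) (by rw [← map_mul, mul_inv_cancel, map_one])
    (by rw [← map_mul, ← map_mul, hcomm.eq])
    (hsC i) (by rw [hsC, map_inv]) (by rw [hsC, hi])
    (hσ.odd_orderOf i) (by rw [← map_pow, hio, map_one]) (by rw [← map_pow, hjo, map_one])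
    ?_ (fun w => congrArg Additive.ofMul (ht.four (Additive.toMul w)))
    (fun w hw => congrArg Additive.ofMul (ht.fpf (Additive.toMul w) (congrArg Additive.toMul hw)))
    ?_ (Additive.ofMul ⟨n, hn⟩)
  · have h1 := congrArg (fun w => ((Additive.toMul w : N) : G)) key
    simp only [hval, toMul_ofMul] at h1
    exact mul_inv_eq_iff_eq_mul.1 h1
  · intro w hw
    obtain ⟨m, rfl⟩ := Additive.ofMul.surjective w
    rw [← ofMul_pow] at hw
    have h1 : orderOf m ∣ o := orderOf_dvd_of_pow_eq_one (Additive.ofMul.injective hw)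
    have h2 : orderOf m = 1 := Nat.eq_one_of_dvd_coprimes hcop h1 (orderOf_dvd_natCard m)
    rw [orderOf_eq_one_iff.1 h2]
    rfl
  · intro w hw
    obtain ⟨⟨m, hm⟩, rfl⟩ := Additive.ofMul.surjective w
    have hfix : σ (σ m) = m := by
      have := congrArg (fun w => ((Additive.toMul w : N) : G)) hw
      rw [← hts ⟨m, hm⟩]
      exact (hts _).symm.trans this
    rw [← ofMul_toMul (C (σ i) (Additive.ofMul ⟨m, hm⟩)), ← ofMul_div]
    apply Additive.toMul.injective
    apply Subtype.ext
    rw [hval]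
    simp only [toMul_ofMul, div_eq_mul_inv, Subgroup.coe_mul, Subgroup.coe_inv, hval]
    set j := σ i with hj
    -- `j m j⁻¹ m⁻¹` commutes with `i`
    have h1 : Commute i (m * j * m⁻¹) := by
      have hm' : σ (σ m⁻¹) = m⁻¹ := by rw [map_inv, map_inv, hfix]
      have := (hσ.commute_conj hi hm')
      have h2 := this.map (MulAut.conj m).toMonoidHom
      simpa [mul_assoc] using h2
    have h2 : Commute i (j * (m * j⁻¹ * m⁻¹)) := by
      refine hcomm.mul_right ?_
      have := h1.inv_right
      simpa [mul_assoc] using this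
    have e : j * m * j⁻¹ * m⁻¹ = j * (m * j⁻¹ * m⁻¹) := by group
    rw [e, h2.eq, mul_inv_cancel_right]

/-- In a solvable group the orbit group of an inverted `p`-element is a `p`-group. -/
theorem isPGroup_orbitGroup : ∀ (n : ℕ) (G : Type u) [Group G] [Finite G] (σ : MulAut G),
    Nat.card G ≤ n → IsFpfFour σ → Group.IsSolvable G → ∀ (p : ℕ), p.Prime → ∀ (i : G),
      σ (σ i) = i⁻¹ → (∃ k, orderOf i = p ^ k) → IsPGroup p (orbitGroup σ i) := by
  intro n
  induction n with
  | zero => intro G _ _ σ hn; exact absurd hn (by have := Nat.card_pos (α := G); omega)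
  | succ n ih =>
    intro G _ _ σ hn hσ hsol p hp i hi hk
    haveI := Fact.mk hp
    rcases subsingleton_or_nontrivial G with hG | hG
    · intro x; exact ⟨0, Subsingleton.elim _ _⟩
    -- an invariant elementary abelian normal subgroup
    obtain ⟨A, hAc, hA0, hAcomm⟩ : ∃ A : Subgroup G, A.Characteristic ∧ A ≠ ⊥ ∧
        IsMulCommutative A := by
      obtain ⟨m, hm⟩ := hsol.solvable
      classical
      have hex : ∃ m, derivedSeries G m = ⊥ := ⟨m, hm⟩
      obtain ⟨m', hm'⟩ : ∃ m', Nat.find hex = m' + 1 := by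
        refine Nat.exists_eq_succ_of_ne_zero fun h0 => ?_
        have := Nat.find_spec hex
        rw [h0, derivedSeries_zero] at this
        exact (top_ne_bot : (⊤ : Subgroup G) ≠ ⊥) this
      refine ⟨derivedSeries G m', inferInstance, Nat.find_min hex (by omega), ?_⟩
      have h1 := Nat.find_spec hex
      rw [hm', derivedSeries_succ, commutator_eq_bot_iff_le_centralizer] at h1
      exact ⟨⟨fun a b => Subtype.ext (mem_centralizer_iff.1 (h1 b.2) a a.2)⟩⟩
    obtain ⟨r, hr, hrd⟩ := Nat.exists_prime_and_dvd (fun h => hA0 (Subgroup.eq_bot_of_card_eq _ h) :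
      Nat.card A ≠ 1)
    haveI := Fact.mk hr
    let N : Subgroup G :=
      { carrier := {x | x ∈ A ∧ x ^ r = 1}
        one_mem' := ⟨one_mem A, one_pow r⟩
        mul_mem' := by
          rintro a b ⟨ha, ha'⟩ ⟨hb, hb'⟩
          have hcm : Commute a b :=
            congrArg Subtype.val (hAcomm.is_comm.comm (⟨a, ha⟩ : A) ⟨b, hb⟩)
          exact ⟨mul_mem ha hb, by rw [hcm.mul_pow, ha', hb', one_mul]⟩
        inv_mem' := by
          rintro a ⟨ha, ha'⟩
          exact ⟨inv_mem ha, by rw [inv_pow, ha', inv_one]⟩ }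
    have hAinv : ∀ (a : MulAut G), ∀ x ∈ N, a x ∈ N := fun a x hx =>
      ⟨Subgroup.characteristic_iff_map_le.1 hAc a ⟨x, hx.1, rfl⟩,
        by rw [← map_pow, hx.2, map_one]⟩
    haveI : N.Normal := ⟨fun x hx g => hAinv (MulAut.conj g) x hx⟩
    haveI : IsMulCommutative N := ⟨⟨fun a b => by
      have h := congrArg Subtype.val (hAcomm.is_comm.comm (⟨a, a.2.1⟩ : A) ⟨b, b.2.1⟩)
      exact Subtype.ext h⟩⟩
    have hNr : IsPGroup r N := fun x => ⟨1, Subtype.ext (by simpa using x.2.2)⟩
    have hN0 : N ≠ ⊥ := by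
      obtain ⟨x, hx⟩ := exists_prime_orderOf_dvd_card' r hrd
      intro h
      have hx1 : (x : G) ∈ N := ⟨x.2, by
        rw [← Subgroup.coe_pow, ← hx, pow_orderOf_eq_one, Subgroup.coe_one]⟩
      rw [h, mem_bot] at hx1
      have hx2 : x = 1 := Subtype.ext hx1
      rw [hx2, orderOf_one] at hx
      exact hr.one_lt.ne hx
    obtain ⟨s, hs, hsmk⟩ := hσ.exists_quotient N (hAinv σ)
    have hcard : Nat.card (G ⧸ N) ≤ n := by
      have h1 := card_eq_card_quotient_mul_card_subgroup N
      have h2 : 2 ≤ Nat.card N := (N.one_lt_card_iff_ne_bot).2 hN0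
      have h3 := Nat.card_pos (α := G ⧸ N)
      nlinarith
    haveI : Group.IsSolvable G := hsol
    have hib : s (s (i : G ⧸ N)) = ((i : G ⧸ N))⁻¹ := by rw [hsmk, hsmk, hi]; rfl
    obtain ⟨k, hk⟩ := hk
    obtain ⟨k', -, hk'⟩ := (Nat.dvd_prime_pow hp).1
      (hk ▸ orderOf_map_dvd (QuotientGroup.mk' N) i : orderOf (i : G ⧸ N) ∣ p ^ k)
    have IH := ih (G ⧸ N) s hcard hs (Group.isSolvable_of_surjective
      (f := QuotientGroup.mk' N) (QuotientGroup.mk'_surjective N)) p hp _ hib ⟨k', hk'⟩
    set J := orbitGroup σ i with hJ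
    have hle : J.map (QuotientGroup.mk' N) ≤ orbitGroup s (i : G ⧸ N) := by
      rw [hJ, orbitGroup, MonoidHom.map_closure, closure_le]
      rintro _ ⟨y, ⟨h, hh, e⟩, rfl⟩
      refine subset_closure ⟨(h : G ⧸ N), by rw [hsmk, hsmk, hh], ?_⟩
      rcases e with rfl | rfl
      · left; simp
      · right; simp [hsmk]
    have hmk : ∀ y ∈ J, ∃ m, y ^ p ^ m ∈ N := by
      intro y hy
      obtain ⟨m, hm⟩ := IH ⟨_, hle ⟨y, hy, rfl⟩⟩
      refine ⟨m, (QuotientGroup.eq_one_iff _).1 ?_⟩
      exact congrArg Subtype.val hm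
    by_cases hrp : r = p
    · subst hrp
      intro y
      obtain ⟨m, hm⟩ := hmk y y.2
      exact ⟨m + 1, Subtype.ext (by rw [SubmonoidClass.coe_pow, pow_succ, pow_mul]; exact hm.2)⟩
    · have hgen : ∀ z, σ (σ z) = z⁻¹ → orderOf z = p ^ k → ∀ x ∈ N, z * x = x * z := by
        intro z hz hzk x hx
        refine hσ.centralizes hz N (hAinv σ) ?_ hx
        obtain ⟨e, he⟩ := IsPGroup.iff_card.1 hNr
        rw [hzk, he]
        exact Nat.Coprime.pow _ _ ((Nat.coprime_primes hp hr).2 (Ne.symm hrp))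
      have hgpow : ∀ y ∈ orbitSet σ i, σ (σ y) = y⁻¹ ∧ orderOf y = p ^ k := by
        rintro y ⟨h, hh, rfl | rfl⟩
        · exact ⟨hσ.inverted_conj hi hh,
            (MulEquiv.orderOf_eq (MulAut.conj h) i).trans hk⟩
        · exact ⟨hσ.inverted_conj (hσ.inverted_apply hi) hh,
            ((MulEquiv.orderOf_eq (MulAut.conj h) (σ i)).trans (MulEquiv.orderOf_eq σ i)).trans hk⟩
      have hcen : J ≤ centralizer (N : Set G) := by
        rw [hJ, orbitGroup, closure_le]
        intro y hy
        exact mem_centralizer_iff.2 fun x hx =>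
          (hgen y (hgpow y hy).1 (hgpow y hy).2 x hx).symm
      let f : J →* G ⧸ N := (QuotientGroup.mk' N).comp J.subtype
      have hfp : IsPGroup p f.range := by
        refine IH.to_le ?_
        rintro _ ⟨y, rfl⟩
        exact hle ⟨y, y.2, rfl⟩
      haveI := hfp.isNilpotent
      haveI : Group.IsNilpotent J := by
        refine Subgroup.isNilpotent_of_ker_le_center f.rangeRestrict ?_
        rw [MonoidHom.ker_rangeRestrict]
        intro y hy
        rw [Subgroup.mem_center_iff]
        intro w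
        exact Subtype.ext (mem_centralizer_iff.1 (hcen w.2) (y : G)
          ((QuotientGroup.eq_one_iff _).1 hy)).symm
      obtain ⟨P⟩ : Nonempty (Sylow p J) := inferInstance
      haveI : (P : Subgroup J).Normal :=
        (Group.isNilpotent_of_finite_tfae.out 0 3 rfl rfl).mp inferInstance p inferInstance P
      have huniq := Sylow.unique_of_normal P inferInstance
      have hall : (P : Subgroup J) = ⊤ := by
        rw [eq_top_iff, ← map_subtype_le_map_subtype, ← MonoidHom.range_eq_map, range_subtype]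
        conv_lhs => rw [hJ, orbitGroup]
        rw [closure_le]
        intro y hy
        have hyJ : y ∈ J := subset_closure hy
        have hyp : IsPGroup p (zpowers (⟨y, hyJ⟩ : J)) := IsPGroup.of_card (n := k)
          (by rw [Nat.card_zpowers, orderOf_mk, (hgpow y hy).2])
        obtain ⟨Q, hQ⟩ := hyp.exists_le_sylow
        refine ⟨⟨y, hyJ⟩, ?_, rfl⟩
        have := huniq
        rw [Subsingleton.elim P Q]
        exact hQ (mem_zpowers _)
      exact (hall ▸ P.isPGroup').of_equiv topEquiv

end Cfsg.Agent.H23.OneClass
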