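import Mathlib

/-!
# The image of a group acting irreducibly, with commutative image, on a small module
-/

set_option autoImplicit false
set_option linter.style.haveILetI false

namespace Cfsg.Agent.H23.OneClass

open Subgroup

/-- Let `ψ` act on the finite additive `p`-group `U` with commuting image and without proper
nontrivial invariant subgroup. If `|U| < p ^ n` and the index of the kernel divides `p ^ n - 1`,
then `(index + 1) ^ 2 ≤ p ^ n`. -/
theorem index_ker_sq_le {G : Type*} [Group G] [Finite G] {U : Type*} [AddCommGroup U] [Finite U]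
    [Nontrivial U] (ψ : G →* AddMonoid.End U) {p n : ℕ} (hp : p.Prime)
    (hUcard : ∃ i, Nat.card U = p ^ i) (hlt : Nat.card U < p ^ n)
    (hcomm : ∀ a b, ψ a * ψ b = ψ b * ψ a)
    (hirr : ∀ W : AddSubgroup U, (∀ g, ∀ w ∈ W, ψ g w ∈ W) → W = ⊥ ∨ W = ⊤)
    (hdvd : ψ.ker.index ∣ p ^ n - 1) : (ψ.ker.index + 1) ^ 2 ≤ p ^ n := by
  classical
  let E := Subring.closure (Set.range ψ)
  letI : CommRing E := Subring.closureCommRingOfComm (by
    rintro _ ⟨a, rfl⟩ _ ⟨b, rfl⟩; exact hcomm a b)
  haveI : Finite E := Finite.of_injective (fun f : E => ((f : AddMonoid.End U) : U → U))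
    (fun f g h => Subtype.ext (DFunLike.coe_injective h))
  -- elements of `E` commute with the action
  have hE : ∀ f : E, ∀ g, (f : AddMonoid.End U) * ψ g = ψ g * f := by
    intro f g
    have := mul_comm f ⟨ψ g, Subring.subset_closure ⟨g, rfl⟩⟩
    exact congrArg Subtype.val this
  have hinj : ∀ f : E, f ≠ 0 → Function.Injective (f : AddMonoid.End U) := by
    intro f hf
    rcases hirr (f : AddMonoid.End U).ker (fun g w hw => by
      have hw' : (f : AddMonoid.End U) w = 0 := hw
      show ((f : AddMonoid.End U) * ψ g) w = 0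
      rw [hE f g]
      show ψ g ((f : AddMonoid.End U) w) = 0
      rw [hw', map_zero]) with h | h
    · exact (AddMonoidHom.ker_eq_bot_iff _).1 h
    · refine absurd (Subtype.ext (DFunLike.ext _ _ fun w => ?_)) hf
      have : w ∈ (f : AddMonoid.End U).ker := h ▸ AddSubgroup.mem_top w
      exact this
  haveI : Nontrivial E := by
    obtain ⟨a, b, hab⟩ := exists_pair_ne U
    exact ⟨⟨0, 1, fun h => hab (by
      have h' := congrArg (fun f : E => (f : AddMonoid.End U) (a - b)) h
      exact (sub_eq_zero.1 h'.symm))⟩⟩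
  haveI : NoZeroDivisors E := ⟨fun {f g} h => by
    by_contra hc
    push Not at hc
    refine hc.2 (Subtype.ext (DFunLike.ext _ _ fun w => hinj f hc.1 ?_))
    have h' := congrArg (fun e : E => (e : AddMonoid.End U) w) h
    show (f : AddMonoid.End U) ((g : AddMonoid.End U) w) = (f : AddMonoid.End U) 0
    rw [map_zero]
    exact h'⟩
  haveI : IsDomain E := NoZeroDivisors.to_isDomain E
  haveI : Fintype E := Fintype.ofFinite E
  let fE : Field E := Fintype.fieldOfDomain E
  -- `|E|` is a power of `p` less than `p ^ n`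
  obtain ⟨u, hu⟩ := exists_ne (0 : U)
  let ev : E →+ U :=
    { toFun := fun f => (f : AddMonoid.End U) u, map_zero' := rfl, map_add' := fun f g => rfl }
  have hev : Function.Injective ev := by
    rw [injective_iff_map_eq_zero]
    intro f hf
    by_contra hne
    exact hu (hinj f hne (hf.trans (map_zero _).symm))
  obtain ⟨i, hi⟩ := hUcard
  have hEU : Nat.card E ∣ Nat.card U := AddSubgroup.card_dvd_of_injective ev hev
  rw [hi] at hEU hlt
  obtain ⟨j, hji, hj⟩ := (Nat.dvd_prime_pow hp).1 hEU
  have hjn : j < n := lt_of_le_of_lt hji ((Nat.pow_lt_pow_iff_right hp.one_lt).1 hlt)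
  -- the image lies in the units
  have hcardU : Nat.card Eˣ = p ^ j - 1 := by
    rw [← hj]
    letI := fE
    exact Nat.card_units E
  let θ : G →* Eˣ :=
    MonoidHom.toHomUnits (ψ.codRestrict E.toSubmonoid fun g => Subring.subset_closure ⟨g, rfl⟩)
  have hker : θ.ker = ψ.ker := by
    ext g
    simp only [MonoidHom.mem_ker, Units.ext_iff, θ, MonoidHom.coe_toHomUnits, Units.val_one]
    exact ⟨fun h => congrArg Subtype.val h, fun h => Subtype.ext h⟩
  have h1 : ψ.ker.index ∣ p ^ j - 1 := by
    rw [← hker, index_ker, ← hcardU]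
    exact card_subgroup_dvd_card θ.range
  have h2 : ψ.ker.index ∣ p ^ Nat.gcd j n - 1 := by
    rw [← Nat.pow_sub_one_gcd_pow_sub_one]
    exact Nat.dvd_gcd h1 hdvd
  have hj0 : j ≠ 0 := by
    rintro rfl
    rw [pow_zero] at hj
    exact (Finite.one_lt_card (α := E)).ne' hj
  have hg0 : 0 < Nat.gcd j n := Nat.gcd_pos_of_pos_left _ (Nat.pos_of_ne_zero hj0)
  have hgn : 2 * Nat.gcd j n ≤ n := by
    obtain ⟨k, hk⟩ := Nat.gcd_dvd_right j n
    have hle : Nat.gcd j n ≤ j := Nat.gcd_le_left _ (Nat.pos_of_ne_zero hj0)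
    rcases k with _ | _ | k
    · simp at hk; omega
    · simp at hk; omega
    · nlinarith
  have hpos : 0 < p ^ Nat.gcd j n - 1 := by
    have := Nat.one_lt_pow hg0.ne' hp.one_lt
    omega
  calc (ψ.ker.index + 1) ^ 2 ≤ (p ^ Nat.gcd j n) ^ 2 :=
        Nat.pow_le_pow_left (by have := Nat.le_of_dvd hpos h2; omega) 2
    _ ≤ p ^ n := by rw [← pow_mul]; exact Nat.pow_le_pow_right hp.pos (by omega)

end Cfsg.Agent.H23.OneClass
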