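import Cfsg.Agent.H23.OneClass.Basic
import Cfsg.Agent.H23.OneClass.IndexBound

/-!
# One class outside `K`, with `[G' : K] > 2` and `G'` a `p`-group

Then `|G : G'| = q - 1` where `q = [G' : K]`, every `x ∈ G' \ K` has class `xK` in `G'`, and `G'`
has class at most two: the action of `G/G'` on two consecutive central factors of order less than
`q` would have kernels meeting in more than `G'`.
-/

set_option autoImplicit false
set_option linter.style.haveILetI false

namespace Cfsg.Agent.H23.OneClass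

open Subgroup
open scoped commutatorElement

universe u

variable {G : Type u} [Group G] [Finite G]

/-- The case `K = ⊥`: an element of `G'` outside `1` has centralizer `G'`. -/
theorem IsOneClass.centralizer_eq (h : IsOneClass (⊥ : Subgroup G))
    (hab : ⁅commutator G, commutator G⁆ = ⊥) (hq : 2 < Nat.card (commutator G)) {x : G}
    (hx : x ∈ commutator G) (hx' : x ≠ 1) : centralizer ({x} : Set G) = commutator G := by
  classical
  have hNcomm : ∀ a ∈ commutator G, ∀ b ∈ commutator G, a * b = b * a := fun a ha b hb =>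
    commutatorElement_eq_one_iff_mul_comm.1 (mem_bot.1 (hab ▸ commutator_mem_commutator ha hb))
  set C := centralizer ({x} : Set G) with hC
  have hNC : commutator G ≤ C := fun a ha => mem_centralizer_singleton_iff.2 (hNcomm a ha x hx)
  haveI hCn : C.Normal := ⟨fun c hc g => by
    have : g * c * g⁻¹ * c⁻¹ ∈ C := hNC (commutator_mem_commutator (mem_top g) (mem_top c))
    simpa using mul_mem this hc⟩
  have hCall : ∀ c ∈ C, ∀ y ∈ commutator G, c * y = y * c := by
    intro c hc y hy
    by_cases hy1 : y = 1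
    · simp [hy1]
    obtain ⟨s, rfl⟩ := h.class_eq x hx (fun e => hx' (mem_bot.1 e)) y hy (fun e => hy1 (mem_bot.1 e))
    have := mem_centralizer_singleton_iff.1 (Normal.conj_mem' hCn c hc s)
    calc c * (s * x * s⁻¹) = s * (s⁻¹ * c * s * x) * s⁻¹ := by group
      _ = s * (x * (s⁻¹ * c * s)) * s⁻¹ := by rw [this]
      _ = s * x * s⁻¹ * c := by group
  have hceq := h.card_eq hx (fun e => hx' (mem_bot.1 e))
  rw [card_bot, mul_one, relIndex_bot_left] at hceq
  obtain ⟨t, ht⟩ : ∃ t, t ∉ C := by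
    by_contra hall
    push Not at hall
    rw [show centralizer ({x} : Set G) = ⊤ from eq_top_iff.2 fun g _ => hall g, card_top] at hceq
    have := (Nat.mul_eq_left (Nat.card_pos (α := G)).ne').1 hceq
    omega
  have hfpf : ∀ n ∈ commutator G, t * n = n * t → n = 1 := by
    intro n hn e
    by_contra hn1
    obtain ⟨s, hs⟩ := h.class_eq n hn (fun e => hn1 (mem_bot.1 e)) x hx (fun e => hx' (mem_bot.1 e))
    have h1 : s * t * s⁻¹ ∈ C := mem_centralizer_singleton_iff.2 (by
      rw [← hs]
      calc s * t * s⁻¹ * (s * n * s⁻¹) = s * (t * n) * s⁻¹ := by group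
        _ = s * (n * t) * s⁻¹ := by rw [e]
        _ = s * n * s⁻¹ * (s * t * s⁻¹) := by group)
    have := Normal.conj_mem' hCn _ h1 s
    exact ht (by simpa [mul_assoc] using this)
  refine le_antisymm (fun c hc => ?_) hNC
  -- correct `c` to commute with `t`
  let f : commutator G → commutator G := fun n =>
    ⟨⁅(n : G), t⁆, commutator_mem_commutator (mem_top _) (mem_top _)⟩
  have hf : Function.Injective f := by
    intro a b e
    have e' : (a : G) * t * (a : G)⁻¹ * t⁻¹ = b * t * (b : G)⁻¹ * t⁻¹ := congrArg Subtype.val e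
    have e2 := mul_right_cancel e'
    have := hfpf ((b : G)⁻¹ * a) (mul_mem (inv_mem b.2) a.2) (by
      calc t * ((b : G)⁻¹ * a) = (b : G)⁻¹ * (b * t * (b : G)⁻¹) * a := by group
        _ = (b : G)⁻¹ * (a * t * (a : G)⁻¹) * a := by rw [e2]
        _ = (b : G)⁻¹ * a * t := by group)
    exact Subtype.ext (inv_mul_eq_one.1 this).symm
  obtain ⟨n, hn⟩ := (Finite.injective_iff_surjective.1 hf)
    ⟨⁅c, t⁆⁻¹, inv_mem (commutator_mem_commutator (mem_top _) (mem_top _))⟩
  have hn' : ⁅(n : G), t⁆ = ⁅c, t⁆⁻¹ := congrArg Subtype.val hn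
  set d := (n : G) * c with hd
  have hdC : d ∈ C := mul_mem (hNC n.2) hc
  have hdt : d * t = t * d := by
    rw [← commutatorElement_eq_one_iff_mul_comm]
    have e : ⁅d, t⁆ = n * ⁅c, t⁆ * (n : G)⁻¹ * ⁅(n : G), t⁆ := by
      simp only [hd, commutatorElement_def]; group
    rw [e, hNcomm n n.2 _ (commutator_mem_commutator (mem_top _) (mem_top _)),
      mul_inv_cancel_right, hn', mul_inv_cancel]
  have hdN : d ∈ commutator G := by
    refine h.center_le d fun g => mem_bot.2 ?_
    have hw : ⁅d, g⁆ ∈ commutator G := commutator_mem_commutator (mem_top _) (mem_top _)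
    refine hfpf _ hw ?_
    have hm : g⁻¹ * (t * g * t⁻¹) ∈ commutator G := by
      have := commutator_mem_commutator (mem_top (g⁻¹ : G)) (mem_top t)
      rw [_root_.commutator_def]
      simpa [commutatorElement_def, mul_assoc] using this
    have hdm := hCall d hdC _ hm
    have e : t * ⁅d, g⁆ * t⁻¹ = ⁅d, g⁆ := by
      rw [← MulAut.conj_apply, map_commutatorElement, MulAut.conj_apply, MulAut.conj_apply,
        show t * d * t⁻¹ = d by rw [← hdt, mul_inv_cancel_right],
        show t * g * t⁻¹ = g * (g⁻¹ * (t * g * t⁻¹)) by group,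
        commutatorElement_def, commutatorElement_def]
      generalize g⁻¹ * (t * g * t⁻¹) = m at hdm ⊢
      calc d * (g * m) * d⁻¹ * (g * m)⁻¹ = d * g * (m * d⁻¹) * m⁻¹ * g⁻¹ := by group
        _ = d * g * (d⁻¹ * m) * m⁻¹ * g⁻¹ := by
          rw [(Commute.inv_left (show Commute d m from hdm)).eq]
        _ = d * g * d⁻¹ * g⁻¹ := by group
    exact mul_inv_eq_iff_eq_mul.1 e
  simpa [hd] using mul_mem (inv_mem n.2) hdN

variable {K : Subgroup G} {p : ℕ}

/-- `G'/K` is abelian. -/
theorem IsOneClass.commutator_le_of_nilpotent (h : IsOneClass K)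
    [Group.IsNilpotent (commutator G)] : ⁅commutator G, commutator G⁆ ≤ K := by
  haveI := h.normal
  rcases h.dichotomy (⁅commutator G, commutator G⁆ ⊔ K) le_sup_right
    (sup_le (commutator_le_right _ _) h.le) with e | e
  · exact e ▸ le_sup_left
  · exfalso
    set π := QuotientGroup.mk' K
    have h1 : (commutator G).map π ≤ ⁅(commutator G).map π, (commutator G).map π⁆ := by
      conv_lhs => rw [← e]
      rw [Subgroup.map_sup, map_commutator]
      refine sup_le le_rfl ?_
      rw [(Subgroup.map_eq_bot_iff K).2 (by rw [QuotientGroup.ker_mk'])]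
      exact bot_le
    haveI : Group.IsNilpotent ((commutator G).map π) :=
      Group.nilpotent_of_surjective (π.subgroupMap (commutator G)) (π.subgroupMap_surjective _)
    have := eq_bot_of_le_commutator _ _ le_rfl h1
    obtain ⟨x, hx, hx'⟩ := h.ne
    have h2 : π x ∈ (commutator G).map π := ⟨x, hx, rfl⟩
    rw [this, mem_bot] at h2
    exact hx' ((QuotientGroup.eq_one_iff x).1 h2)

variable [Group.IsNilpotent (commutator G)]

/-- The centralizer of `x` modulo `K` is `G'`, and `|G : G'| = [G' : K] - 1`. -/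
theorem IsOneClass.centralizer_mod (h : IsOneClass K) (hq : 2 < K.relIndex (commutator G)) {x : G}
    (hx : x ∈ commutator G) (hx' : x ∉ K) :
    (∀ c, ⁅c, x⁆ ∈ K → c ∈ commutator G) ∧
      (commutator G).index = K.relIndex (commutator G) - 1 := by
  haveI := h.normal
  obtain ⟨h1, h2, h3⟩ := h.quotient K le_rfl
  have hbot : K.map (QuotientGroup.mk' K) = ⊥ :=
    (Subgroup.map_eq_bot_iff K).2 (by rw [QuotientGroup.ker_mk'])
  rw [hbot] at h1
  have hab : ⁅commutator (G ⧸ K), commutator (G ⧸ K)⁆ = ⊥ := by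
    rw [h2, ← map_commutator, Subgroup.map_eq_bot_iff, QuotientGroup.ker_mk']
    exact h.commutator_le_of_nilpotent
  have hcard : Nat.card (commutator (G ⧸ K)) = K.relIndex (commutator G) := by
    rw [h2, ← relIndex_bot_left, ← hbot, ← relIndex_comap, comap_map_eq, QuotientGroup.ker_mk',
      sup_idem]
  have hxbar : (x : G ⧸ K) ∈ commutator (G ⧸ K) := h2 ▸ ⟨x, hx, rfl⟩
  have hxbar' : (x : G ⧸ K) ≠ 1 := fun e => hx' ((QuotientGroup.eq_one_iff x).1 e)
  have hC := h1.centralizer_eq hab (hcard ▸ hq) hxbar hxbar'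
  refine ⟨fun c hc => ?_, ?_⟩
  · have : (c : G ⧸ K) ∈ centralizer ({(x : G ⧸ K)} : Set (G ⧸ K)) := by
      rw [mem_centralizer_singleton_iff, ← commutatorElement_eq_one_iff_mul_comm]
      exact (QuotientGroup.eq_one_iff _).2 hc
    rw [hC, h2] at this
    obtain ⟨d, hd, e⟩ := this
    have h4 := QuotientGroup.eq.1 e
    simpa using mul_mem hd (h.le h4)
  · have hc := h1.card_eq hxbar (fun e => hxbar' (mem_bot.1 e))
    rw [hC, card_bot, mul_one, relIndex_bot_left, hcard, ← hcard,
      ← card_mul_index (commutator (G ⧸ K))] at hc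
    have h5 := Nat.eq_of_mul_eq_mul_left Nat.card_pos hc
    rw [hcard] at h5
    rw [h5, h2]
    exact (index_map_eq (H := commutator G) (QuotientGroup.mk'_surjective K)
      (by rw [QuotientGroup.ker_mk']; exact h.le)).symm

/-- The centralizer of `x` lies in `G'` and has order `q`; the class of `x` in `G'` is `xK`. -/
theorem IsOneClass.class_in_commutator (h : IsOneClass K) (hq : 2 < K.relIndex (commutator G))
    {x : G} (hx : x ∈ commutator G) (hx' : x ∉ K) :
    centralizer ({x} : Set G) ≤ commutator G ∧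
      Nat.card (centralizer ({x} : Set G)) = K.relIndex (commutator G) ∧
      ∀ k ∈ K, ∃ s ∈ commutator G, x⁻¹ * (s * x * s⁻¹) = k := by
  classical
  haveI := h.normal
  obtain ⟨hC, hidx⟩ := h.centralizer_mod hq hx hx'
  have hle : centralizer ({x} : Set G) ≤ commutator G := by
    intro c hc
    refine hC c ?_
    rw [mem_centralizer_singleton_iff] at hc
    rw [commutatorElement_eq_one_iff_mul_comm.2 hc]
    exact one_mem K
  have hN : Nat.card (commutator G) = Nat.card K * K.relIndex (commutator G) := by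
    rw [← card_mul_index (K.subgroupOf (commutator G)),
      Nat.card_congr (subgroupOfEquivOfLe h.le).toEquiv]
    rfl
  have hcard : Nat.card (centralizer ({x} : Set G)) = K.relIndex (commutator G) := by
    have hc := h.card_eq hx hx'
    rw [← card_mul_index (commutator G), hidx, hN] at hc
    have hc' := Nat.eq_of_mul_eq_mul_right (by omega) hc
    rw [mul_comm (Nat.card K)] at hc'
    exact Nat.eq_of_mul_eq_mul_right Nat.card_pos hc'
  refine ⟨hle, hcard, ?_⟩
  have hab := h.commutator_le_of_nilpotent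
  let C := (centralizer ({x} : Set G)).subgroupOf (commutator G)
  have hmem : ∀ s : commutator G, x⁻¹ * ((s : G) * x * (s : G)⁻¹) ∈ K := fun s => by
    have := hab (commutator_mem_commutator (inv_mem hx) s.2)
    simpa [commutatorElement_def, mul_assoc] using this
  let f : commutator G ⧸ C → K := Quotient.lift (fun s => ⟨_, hmem s⟩) (fun a b e => by
    have e' := mem_centralizer_singleton_iff.1
      (mem_subgroupOf.1 (QuotientGroup.leftRel_apply.1 e))
    apply Subtype.ext
    simp only [mul_right_inj]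
    simp only [Subgroup.coe_mul, Subgroup.coe_inv] at e'
    calc (a : G) * x * (a : G)⁻¹ = a * (x * ((a : G)⁻¹ * b)) * (b : G)⁻¹ := by group
      _ = a * (((a : G)⁻¹ * b) * x) * (b : G)⁻¹ := by rw [e']
      _ = b * x * (b : G)⁻¹ := by group)
  have hinj : Function.Injective f := by
    intro a b
    induction a using QuotientGroup.induction_on with
    | H a =>
      induction b using QuotientGroup.induction_on with
      | H b =>
        intro e
        have e' : x⁻¹ * ((a : G) * x * (a : G)⁻¹) = x⁻¹ * ((b : G) * x * (b : G)⁻¹) :=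
          congrArg Subtype.val e
        rw [mul_right_inj] at e'
        rw [QuotientGroup.eq, mem_subgroupOf, mem_centralizer_singleton_iff]
        simp only [Subgroup.coe_mul, Subgroup.coe_inv]
        calc (a : G)⁻¹ * b * x = (a : G)⁻¹ * (b * x * (b : G)⁻¹) * b := by group
          _ = (a : G)⁻¹ * (a * x * (a : G)⁻¹) * b := by rw [e']
          _ = x * ((a : G)⁻¹ * b) := by group
  have hcards : Nat.card (commutator G ⧸ C) = Nat.card K := by
    have h1 := card_eq_card_quotient_mul_card_subgroup C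
    rw [Nat.card_congr (subgroupOfEquivOfLe hle).toEquiv, hcard, hN] at h1
    exact (Nat.eq_of_mul_eq_mul_right (by omega) h1).symm
  have hbij := (Nat.bijective_iff_injective_and_card f).2 ⟨hinj, hcards⟩
  intro k hk
  obtain ⟨z, hz⟩ := hbij.2 ⟨k, hk⟩
  induction z using QuotientGroup.induction_on with
  | H s => exact ⟨s, s.2, congrArg Subtype.val hz⟩

/-- Central sections of `G'` below `K` have order less than `q`. -/
theorem IsOneClass.section_bound (h : IsOneClass K) (hq : 2 < K.relIndex (commutator G))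
    (M A : Subgroup G) [M.Normal] (hMA : M ≤ A) (hAK : A ≤ K) (hcen : ⁅A, commutator G⁆ ≤ M) :
    M.relIndex A < K.relIndex (commutator G) := by
  classical
  obtain ⟨x, hx, hx'⟩ := h.ne
  obtain ⟨hle, hcard, hsurj⟩ := h.class_in_commutator hq hx hx'
  set X := {s : G | s ∈ commutator G ∧ x⁻¹ * (s * x * s⁻¹) ∈ M}
  have hMK : ∀ m ∈ M, m ∈ K := fun m hm => hAK (hMA hm)
  choose σ hσN hσ using hsurj
  -- `|X| ≤ |M| q`
  let φ : X → M × centralizer ({x} : Set G) := fun s =>
    (⟨_, s.2.2⟩, ⟨(σ _ (hMK _ s.2.2))⁻¹ * s, by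
      rw [mem_centralizer_singleton_iff]
      have e := hσ _ (hMK _ s.2.2)
      rw [mul_right_inj] at e
      generalize σ _ (hMK _ s.2.2) = r at e ⊢
      calc r⁻¹ * (s : G) * x = r⁻¹ * ((s : G) * x * (s : G)⁻¹) * s := by group
        _ = r⁻¹ * (r * x * r⁻¹) * s := by rw [e]
        _ = x * (r⁻¹ * s) := by group⟩)
  have hφ : Function.Injective φ := by
    rintro ⟨s, hs⟩ ⟨t, ht⟩ e
    have e1 : x⁻¹ * (s * x * s⁻¹) = x⁻¹ * (t * x * t⁻¹) :=
      congrArg (fun z => ((z : M × centralizer ({x} : Set G)).1 : G)) e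
    have e2 := congrArg (fun z => ((z : M × centralizer ({x} : Set G)).2 : G)) e
    simp only [φ, e1] at e2
    exact Subtype.ext (mul_left_cancel e2)
  -- `2 |A| ≤ |X|`
  have hxA : ∀ a ∈ A, x⁻¹ * (a * x * a⁻¹) ∈ M := fun a ha => by
    have := hcen (commutator_mem_commutator ha hx)
    have e : x⁻¹ * (a * x * a⁻¹) = x⁻¹ * ⁅a, x⁆ * x⁻¹⁻¹ := by
      rw [commutatorElement_def]; group
    rw [e]
    exact Normal.conj_mem inferInstance _ this x⁻¹
  let ι : A × Bool → X := fun v => ⟨(if v.2 then x else 1) * v.1, by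
    constructor
    · refine mul_mem ?_ (h.le (hAK v.1.2))
      split
      · exact hx
      · exact one_mem _
    · split
      · have := Normal.conj_mem' ‹M.Normal› _ (hxA v.1 v.1.2) x⁻¹
        simpa [mul_assoc] using this
      · simpa using hxA v.1 v.1.2⟩
  have hι : Function.Injective ι := by
    rintro ⟨a, i⟩ ⟨b, j⟩ e
    have e' : (if i then x else 1) * (a : G) = (if j then x else 1) * (b : G) :=
      congrArg Subtype.val e
    cases i <;> cases j <;>
      simp only [Bool.false_eq_true, if_false, if_true, one_mul, mul_right_inj] at e'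
    · simp [Subtype.ext e']
    · exact absurd (by
        have e3 : x = (a : G) * (b : G)⁻¹ := by rw [e', mul_inv_cancel_right]
        rw [e3]; exact mul_mem (hAK a.2) (inv_mem (hAK b.2))) hx'
    · exact absurd (by
        have e3 : x = (b : G) * (a : G)⁻¹ := by rw [← e', mul_inv_cancel_right]
        rw [e3]; exact mul_mem (hAK b.2) (inv_mem (hAK a.2))) hx'
    · simp [Subtype.ext e']
  have h1 := (Nat.card_le_card_of_injective ι hι).trans (Nat.card_le_card_of_injective φ hφ)
  have h2 : Nat.card A = Nat.card M * M.relIndex A := by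
    rw [← card_mul_index (M.subgroupOf A), Nat.card_congr (subgroupOfEquivOfLe hMA).toEquiv]
    rfl
  rw [Nat.card_prod, Nat.card_prod, hcard, h2, mul_assoc,
    show Nat.card Bool = 2 by simp] at h1
  have h3 := Nat.le_of_mul_le_mul_left h1 Nat.card_pos
  omega

/-- A subgroup normal and minimal over `C` inside `G'`, of small order modulo `C`: the subgroup
acting trivially has index at most `√q - 1`. -/
theorem index_stabilizer_sq_le [Fact p.Prime] (hp : p.Prime) {n : ℕ} (hN : IsPGroup p (commutator G))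
    (C D : Subgroup G) [C.Normal] [D.Normal] (hCD : C < D) (hDN : D ≤ commutator G)
    (hmin : ∀ W : Subgroup G, W.Normal → C ≤ W → W ≤ D → W = C ∨ W = D)
    (hDD : ⁅D, commutator G⁆ ≤ C) (hlt : C.relIndex D < p ^ n)
    (hidx : (commutator G).index = p ^ n - 1) :
    ∃ S : Subgroup G, (∀ a, a ∈ S ↔ ∀ d ∈ D, ⁅a, d⁆ ∈ C) ∧ commutator G ≤ S ∧
      (S.index + 1) ^ 2 ≤ p ^ n := by
  classical
  set π := QuotientGroup.mk' C with hπ
  set D' := D.map π with hD'
  haveI : D'.Normal := Normal.map inferInstance _ (QuotientGroup.mk'_surjective C)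
  have hDab : ∀ a ∈ D', ∀ b ∈ D', a * b = b * a := by
    rintro _ ⟨a, ha, rfl⟩ _ ⟨b, hb, rfl⟩
    rw [← commutatorElement_eq_one_iff_mul_comm, ← map_commutatorElement, hπ,
      QuotientGroup.mk'_apply, QuotientGroup.eq_one_iff]
    exact hDD (commutator_mem_commutator ha (hDN hb))
  letI : CommGroup D' :=
    { (inferInstance : Group D') with mul_comm := fun a b => Subtype.ext (hDab a a.2 b b.2) }
  let ψ : G →* AddMonoid.End (Additive D') :=
    { toFun := fun g => MonoidHom.toAdditive (MulAut.conjNormal (π g) : D' ≃* D').toMonoidHom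
      map_one' := by
        refine DFunLike.ext _ _ fun w => ?_
        apply Additive.toMul.injective
        show MulAut.conjNormal (π 1) (Additive.toMul w) = Additive.toMul w
        rw [map_one, map_one, MulAut.one_apply]
      map_mul' := fun g g' => by
        refine DFunLike.ext _ _ fun w => ?_
        apply Additive.toMul.injective
        show MulAut.conjNormal (π (g * g')) (Additive.toMul w) =
          MulAut.conjNormal (π g) (MulAut.conjNormal (π g') (Additive.toMul w))
        rw [map_mul, map_mul, MulAut.mul_apply] }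
  have hker : ∀ a, a ∈ ψ.ker ↔ ∀ d ∈ D, ⁅a, d⁆ ∈ C := by
    intro a
    constructor
    · intro ha d hd
      have h1 := congrArg (fun f : AddMonoid.End (Additive D') =>
        ((Additive.toMul (f (Additive.ofMul (⟨π d, d, hd, rfl⟩ : D'))) : D') : G ⧸ C))
        (MonoidHom.mem_ker.1 ha)
      have h2 : π a * π d * (π a)⁻¹ = π d := h1
      rw [← QuotientGroup.eq_one_iff]
      show π ⁅a, d⁆ = 1
      rw [map_commutatorElement, commutatorElement_def, h2, mul_inv_cancel]
    · intro ha
      rw [MonoidHom.mem_ker]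
      refine DFunLike.ext _ _ fun w => ?_
      apply Additive.toMul.injective
      apply Subtype.ext
      obtain ⟨z, rfl⟩ := Additive.ofMul.surjective w
      obtain ⟨_, d, hd, rfl⟩ := z
      show π a * π d * (π a)⁻¹ = π d
      have h1 : π ⁅a, d⁆ = 1 := (QuotientGroup.eq_one_iff _).2 (ha d hd)
      rw [map_commutatorElement, commutatorElement_def] at h1
      exact mul_inv_eq_one.1 h1
  have hle : commutator G ≤ ψ.ker := fun a ha => (hker a).2 fun d hd => by
    rw [← commutatorElement_inv]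
    exact inv_mem (hDD (commutator_mem_commutator hd ha))
  have hcard : Nat.card (Additive D') = C.relIndex D := by
    rw [Nat.card_congr Additive.toMul, hD', ← relIndex_bot_left, ← relIndex_comap,
      MonoidHom.comap_bot, hπ, QuotientGroup.ker_mk']
  haveI : Nontrivial (Additive D') := by
    rw [← Finite.one_lt_card_iff_nontrivial, hcard]
    have h1 : C.relIndex D ≠ 0 := index_ne_zero_of_finite
    have h2 : C.relIndex D ≠ 1 := fun e => hCD.not_ge (relIndex_eq_one.1 e)
    omega
  refine ⟨ψ.ker, hker, hle, index_ker_sq_le ψ hp ?_ (hcard ▸ hlt) (fun a b => ?_) ?_ ?_⟩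
  · rw [hcard]
    obtain ⟨i, hi⟩ := IsPGroup.iff_card.1 (hN.to_le hDN)
    obtain ⟨j, -, hj⟩ := (Nat.dvd_prime_pow hp).1 (hi ▸ relIndex_dvd_card C D)
    exact ⟨j, hj⟩
  · have h1 : ψ ⁅a, b⁆ = 1 := hle (commutator_mem_commutator (mem_top a) (mem_top b))
    calc ψ a * ψ b = ψ (a * b) := (map_mul ψ a b).symm
      _ = ψ (⁅a, b⁆ * (b * a)) := by rw [commutatorElement_def]; congr 1; group
      _ = ψ (b * a) := by rw [map_mul ψ, h1, one_mul]
      _ = ψ b * ψ a := map_mul ψ b a
  · intro W hW
    let W' : Subgroup G := ((AddSubgroup.toSubgroup' W).map D'.subtype).comap π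
    haveI : W'.Normal := by
      refine ⟨fun w hw g => ?_⟩
      obtain ⟨z, hz, e⟩ := hw
      refine ⟨MulAut.conjNormal (π g) z, hW g _ hz, ?_⟩
      simp [MulAut.conjNormal_apply, ← e]
    have h1 : C ≤ W' := fun c hc => by
      refine ⟨1, one_mem _, ?_⟩
      simpa [hπ] using ((QuotientGroup.eq_one_iff c).2 hc).symm
    have h2 : W' ≤ D := by
      rintro w ⟨⟨_, d, hd, rfl⟩, -, e⟩
      have e' : π d = π w := e
      have := QuotientGroup.eq.1 e'
      simpa using mul_mem hd (hCD.le this)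
    rcases hmin W' inferInstance h1 h2 with e | e
    · left
      rw [eq_bot_iff]
      intro w hw
      obtain ⟨⟨_, d, hd, rfl⟩, rfl⟩ := Additive.ofMul.surjective w
      have h3 : d ∈ W' := ⟨_, hw, rfl⟩
      rw [e] at h3
      rw [AddSubgroup.mem_bot, ofMul_eq_zero]
      exact Subtype.ext ((QuotientGroup.eq_one_iff d).2 h3)
    · right
      rw [eq_top_iff]
      intro w _
      obtain ⟨⟨_, d, hd, rfl⟩, rfl⟩ := Additive.ofMul.surjective w
      have h3 : d ∈ W' := e.symm ▸ hd
      obtain ⟨z, hz, ez⟩ := h3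
      have : z = ⟨π d, d, hd, rfl⟩ := Subtype.ext ez
      rw [← this]
      exact hz
  · rw [← hidx]
    exact index_dvd_of_le hle

/-- `G'` has class at most two. -/
theorem IsOneClass.commutator_central (h : IsOneClass K) (hp : p.Prime)
    (hN : IsPGroup p (commutator G)) (hq : 2 < K.relIndex (commutator G)) :
    ⁅K, commutator G⁆ = ⊥ := by
  classical
  haveI := h.normal
  haveI := Fact.mk hp
  obtain ⟨x, hx, hx'⟩ := h.ne
  obtain ⟨hC, hidx⟩ := h.centralizer_mod hq hx hx'
  obtain ⟨hle, hcard, hsurj⟩ := h.class_in_commutator hq hx hx'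
  obtain ⟨nN, hnN⟩ := IsPGroup.iff_card.1 hN
  obtain ⟨n, -, hn⟩ := (Nat.dvd_prime_pow hp).1 (hnN ▸ relIndex_dvd_card K (commutator G))
  rw [hn] at hidx
  set N := commutator G with hNdef
  by_contra h3
  set Γ3 := ⁅K, N⁆ with hΓ3
  set Γ4 := ⁅Γ3, N⁆ with hΓ4
  have hΓ3K : Γ3 ≤ K := commutator_le_left K N
  have hΓ4lt : Γ4 < Γ3 := lt_of_le_not_ge (commutator_le_left Γ3 N) fun e =>
    h3 (eq_bot_of_le_commutator N Γ3 (hΓ3K.trans h.le) e)
  obtain ⟨M, ⟨hMn, hM4, hM3⟩, hMmax⟩ :=
    (Set.toFinite {M : Subgroup G | M.Normal ∧ Γ4 ≤ M ∧ M < Γ3}).exists_maximal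
      ⟨Γ4, inferInstance, le_rfl, hΓ4lt⟩
  haveI := hMn
  set πM := QuotientGroup.mk' M with hπM
  let C : Subgroup G := K ⊓ (centralizer (N.map πM : Set (G ⧸ M))).comap πM
  have hCmem : ∀ l, l ∈ C ↔ l ∈ K ∧ ∀ c ∈ N, ⁅l, c⁆ ∈ M := by
    intro l
    refine and_congr Iff.rfl ⟨fun hl c hc => ?_, fun hl => ?_⟩
    · rw [← QuotientGroup.eq_one_iff]
      show πM ⁅l, c⁆ = 1
      rw [map_commutatorElement, commutatorElement_eq_one_iff_mul_comm]
      exact (mem_centralizer_iff.1 hl (πM c) ⟨c, hc, rfl⟩).symm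
    · refine mem_centralizer_iff.2 ?_
      rintro _ ⟨c, hc, rfl⟩
      symm
      rw [← commutatorElement_eq_one_iff_mul_comm, ← map_commutatorElement, hπM,
        QuotientGroup.mk'_apply, QuotientGroup.eq_one_iff]
      exact hl c hc
  have hΓC : Γ3 ≤ C := fun l hl =>
    (hCmem l).2 ⟨hΓ3K hl, fun c hc => hM4 (commutator_mem_commutator hl hc)⟩
  haveI : (N.map πM).Normal := Normal.map inferInstance _ (QuotientGroup.mk'_surjective M)
  haveI : C.Normal := Subgroup.normal_inf_normal _ _
  have hCK : C < K := lt_of_le_not_ge inf_le_left fun e => hM3.not_ge (by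
    rw [hΓ3, commutator_le]
    exact fun l hl c hc => ((hCmem l).1 (e hl)).2 c hc)
  obtain ⟨D, ⟨hDn, hCD, hDK⟩, hDmin⟩ :=
    (Set.toFinite {D : Subgroup G | D.Normal ∧ C < D ∧ D ≤ K}).exists_minimal
      ⟨K, h.normal, hCK, le_rfl⟩
  haveI := hDn
  -- the stabilisers
  have hbound1 : C.relIndex D < p ^ n := by
    rw [← hn]
    have h1 : Γ3.relIndex K < K.relIndex N :=
      h.section_bound hq Γ3 K hΓ3K le_rfl le_rfl
    have h2 : C.relIndex D ≤ Γ3.relIndex K := by
      have e1 := relIndex_mul_relIndex Γ3 C D hΓC hCD.le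
      have e2 := relIndex_mul_relIndex Γ3 D K (hΓC.trans hCD.le) hDK
      have : C.relIndex D ∣ Γ3.relIndex K :=
        (Dvd.intro_left _ e1).trans (Dvd.intro _ e2)
      exact Nat.le_of_dvd (Nat.pos_of_ne_zero index_ne_zero_of_finite) this
    omega
  have hbound2 : M.relIndex Γ3 < p ^ n := by
    rw [← hn]
    exact h.section_bound hq M Γ3 hM3.le hΓ3K hM4
  obtain ⟨S1, hS1, hS1N, hS1i⟩ := index_stabilizer_sq_le (n := n) hp hN C D hCD (hDK.trans h.le)
    (fun W hW hCW hWD => (eq_or_lt_of_le hCW).imp Eq.symm fun hlt =>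
      le_antisymm hWD (hDmin ⟨hW, hlt, hWD.trans hDK⟩ hWD))
    ((commutator_mono hDK le_rfl).trans hΓC) hbound1 hidx
  obtain ⟨S3, hS3, hS3N, hS3i⟩ := index_stabilizer_sq_le (n := n) hp hN M Γ3 hM3
    (hΓ3K.trans h.le)
    (fun W hW hMW hWΓ => (eq_or_lt_of_le hWΓ).symm.imp
      (fun hlt => le_antisymm (hMmax ⟨hW, hM4.trans hMW, hlt⟩ hMW) hMW) id)
    hM4 hbound2 hidx
  -- `N₀`: what `D` commutes with modulo `M`
  let N0 : Subgroup G := N ⊓ (centralizer (D.map πM : Set (G ⧸ M))).comap πM
  haveI : (D.map πM).Normal := Normal.map inferInstance _ (QuotientGroup.mk'_surjective M)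
  haveI : N0.Normal := Subgroup.normal_inf_normal _ _
  have hN0mem : ∀ c, c ∈ N0 ↔ c ∈ N ∧ ∀ l ∈ D, ⁅l, c⁆ ∈ M := by
    intro c
    refine and_congr Iff.rfl ⟨fun hc l hl => ?_, fun hc => ?_⟩
    · rw [← QuotientGroup.eq_one_iff]
      show πM ⁅l, c⁆ = 1
      rw [map_commutatorElement, commutatorElement_eq_one_iff_mul_comm]
      exact mem_centralizer_iff.1 hc (πM l) ⟨l, hl, rfl⟩
    · refine mem_centralizer_iff.2 ?_
      rintro _ ⟨l, hl, rfl⟩
      rw [← commutatorElement_eq_one_iff_mul_comm, ← map_commutatorElement, hπM,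
        QuotientGroup.mk'_apply, QuotientGroup.eq_one_iff]
      exact hc l hl
  have hKK : ⁅K, K⁆ ≤ M := by
    have hK2 : K ≤ ⁅N, N⁆ := fun k hk => by
      obtain ⟨s, hs, e⟩ := hsurj k hk
      rw [← e, show x⁻¹ * (s * x * s⁻¹) = ⁅x⁻¹, s⁆ by
        rw [commutatorElement_def, inv_inv]; simp only [mul_assoc]]
      exact commutator_mem_commutator (inv_mem hx) hs
    refine (commutator_mono hK2 le_rfl).trans ?_
    have hb : ∀ A : Subgroup G, A ≤ M → A.map πM = ⊥ := fun A hA =>
      (Subgroup.map_eq_bot_iff A).2 (by rw [hπM, QuotientGroup.ker_mk']; exact hA)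
    have h1 : ⁅⁅N.map πM, K.map πM⁆, N.map πM⁆ = ⊥ := by
      rw [← map_commutator, ← map_commutator, commutator_comm N K]
      exact hb _ hM4
    have h2 : ⁅⁅K.map πM, N.map πM⁆, N.map πM⁆ = ⊥ := by
      rw [← map_commutator, ← map_commutator]
      exact hb _ hM4
    have h4 := commutator_commutator_eq_bot_of_rotate h1 h2
    rw [← map_commutator, ← map_commutator, Subgroup.map_eq_bot_iff, hπM, QuotientGroup.ker_mk'] at h4
    exact h4
  have hKN0 : K ≤ N0 := fun c hc =>
    (hN0mem c).2 ⟨h.le hc, fun l hl => hKK (commutator_mem_commutator (hDK hl) hc)⟩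
  have hN0K : N0 = K := (h.dichotomy N0 hKN0 inf_le_left).resolve_right fun e =>
    hCD.not_ge fun l hl => (hCmem l).2 ⟨hDK hl, fun c hc => ((hN0mem c).1 (e.symm ▸ hc)).2 l hl⟩
  have hinf : S1 ⊓ S3 ≤ N := by
    rintro a ⟨ha1, ha3⟩
    refine hC a ?_
    rw [← hN0K]
    have hax : ⁅a, x⁆ ∈ N := commutator_mem_commutator (mem_top a) (mem_top x)
    refine (hN0mem _).2 ⟨hax, fun l hl => ?_⟩
    -- `z = ⁅l, x⁆` is fixed by `a` modulo `M`
    have hz : ⁅l, x⁆ ∈ Γ3 := commutator_mem_commutator (hDK hl) hx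
    have hza : πM ⁅a, ⁅l, x⁆⁆ = 1 := (QuotientGroup.eq_one_iff _).2 ((hS3 a).1 ha3 _ hz)
    have hla : ⁅a, l⁆ ∈ C := (hS1 a).1 ha1 l hl
    have hcommC : ∀ c ∈ N, Commute (πM ⁅a, l⁆) (πM c) := fun c hc => by
      rw [← commutatorElement_eq_one_iff_commute, ← map_commutatorElement, hπM,
        QuotientGroup.mk'_apply, QuotientGroup.eq_one_iff]
      exact ((hCmem _).1 hla).2 c hc
    -- conjugate by `a`
    have hy : a * x * a⁻¹ ∈ N := Normal.conj_mem inferInstance x hx a
    have hlN : l ∈ N := h.le (hDK hl)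
    have e1 : πM ⁅a * l * a⁻¹, a * x * a⁻¹⁆ = πM ⁅l, a * x * a⁻¹⁆ := by
      have e : a * l * a⁻¹ = ⁅a, l⁆ * l := by rw [commutatorElement_def]; group
      rw [e]
      simp only [map_commutatorElement πM, map_mul πM (⁅a, l⁆) l]
      rw [← map_commutatorElement πM a l]
      generalize πM ⁅a, l⁆ = m at hcommC ⊢
      have c1 := (hcommC l hlN).eq
      have c2 := (hcommC (a * x * a⁻¹) hy).eq
      generalize πM (a * x * a⁻¹) = y at c2 ⊢
      generalize πM l = ll at c1 ⊢
      simp only [commutatorElement_def]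
      calc m * ll * y * (m * ll)⁻¹ * y⁻¹ = ll * (m * y) * m⁻¹ * ll⁻¹ * y⁻¹ := by
            rw [c1]; group
        _ = ll * (y * m) * m⁻¹ * ll⁻¹ * y⁻¹ := by rw [c2]
        _ = ll * y * ll⁻¹ * y⁻¹ := by group
    have e2 : πM ⁅a * l * a⁻¹, a * x * a⁻¹⁆ = πM ⁅l, x⁆ := by
      rw [← MulAut.conj_apply, ← MulAut.conj_apply, ← map_commutatorElement, MulAut.conj_apply]
      rw [map_commutatorElement πM a, commutatorElement_def, mul_inv_eq_one] at hza
      rw [map_mul, map_mul, map_inv]
      exact hza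
    -- expand `⁅l, e x⁆` with `e = ⁅a, x⁆`
    have e3 : a * x * a⁻¹ = ⁅a, x⁆ * x := by rw [commutatorElement_def]; group
    rw [e1, e3] at e2
    have e4 : ⁅l, ⁅a, x⁆ * x⁆ = ⁅l, ⁅a, x⁆⁆ * (⁅a, x⁆ * ⁅l, x⁆ * ⁅a, x⁆⁻¹) := by
      simp only [commutatorElement_def]; group
    rw [e4, map_mul] at e2
    have e5 : πM (⁅a, x⁆ * ⁅l, x⁆ * ⁅a, x⁆⁻¹) = πM ⁅l, x⁆ := by
      have : πM ⁅⁅l, x⁆, ⁅a, x⁆⁆ = 1 :=
        (QuotientGroup.eq_one_iff _).2 (hM4 (commutator_mem_commutator hz hax))
      rw [map_commutatorElement, commutatorElement_eq_one_iff_mul_comm] at this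
      rw [map_mul, map_mul, map_inv, ← this, mul_inv_cancel_right]
    rw [e5, mul_eq_right] at e2
    exact (QuotientGroup.eq_one_iff _).1 e2
  have hNeq : S1 ⊓ S3 = N := le_antisymm hinf (le_inf hS1N hS3N)
  have hab : N.index ≤ S1.index * S3.index := hNeq ▸ index_inf_le
  rw [hidx] at hab
  have ha1 : 0 < S1.index := Nat.pos_of_ne_zero index_ne_zero_of_finite
  have hb1 : 0 < S3.index := Nat.pos_of_ne_zero index_ne_zero_of_finite
  rw [hn] at hq
  -- `(a+1)(b+1) ≤ q` contradicts `q - 1 ≤ a b`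
  have h4 : ((S1.index + 1) * (S3.index + 1)) ^ 2 ≤ (p ^ n) ^ 2 := by
    rw [mul_pow, sq (p ^ n)]
    exact Nat.mul_le_mul hS1i hS3i
  have h5 := (Nat.pow_le_pow_iff_left (by norm_num : 2 ≠ 0)).1 h4
  have h6 : (S1.index + 1) * (S3.index + 1) = S1.index * S3.index + S1.index + S3.index + 1 := by
    ring
  omega

/-- The order bound when `q > 2`. -/
theorem IsOneClass.order_of_relIndex_gt_two (h : IsOneClass K) (hp : p.Prime)
    (hN : IsPGroup p (commutator G)) (hq : 2 < K.relIndex (commutator G))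
    (hpK : ∀ y ∈ commutator G, y ^ p ∈ K) :
    ∃ x ∈ commutator G, x ∉ K ∧ (x ^ p = 1 ∨ (p = 2 ∧ x ^ 4 = 1)) := by
  classical
  haveI := h.normal
  obtain ⟨x, hx, hx'⟩ := h.ne
  obtain ⟨-, -, hsurj⟩ := h.class_in_commutator hq hx hx'
  have hcen := h.commutator_central hp hN hq
  have hKc : ∀ k ∈ K, ∀ y ∈ commutator G, k * y = y * k := fun k hk y hy =>
    commutatorElement_eq_one_iff_mul_comm.1 (mem_bot.1 (hcen ▸ commutator_mem_commutator hk hy))
  have hab := h.commutator_le_of_nilpotent
  -- moving powers past each other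
  have hswap : ∀ a ∈ commutator G, ∀ b ∈ commutator G, ∀ m : ℕ,
      a ^ m * b = ⁅a, b⁆ ^ m * (b * a ^ m) := by
    intro a ha b hb m
    have hz := hKc _ (hab (commutator_mem_commutator ha hb))
    induction m with
    | zero => simp
    | succ m ih =>
      have e : a * b = ⁅a, b⁆ * (b * a) := by rw [commutatorElement_def]; group
      calc a ^ (m + 1) * b = a ^ m * (a * b) := by rw [pow_succ, mul_assoc]
        _ = a ^ m * (⁅a, b⁆ * (b * a)) := by rw [← e]
        _ = a ^ m * ⁅a, b⁆ * (b * a) := (mul_assoc _ _ _).symm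
        _ = ⁅a, b⁆ * a ^ m * (b * a) := by rw [hz _ (pow_mem ha m)]
        _ = ⁅a, b⁆ * (a ^ m * b) * a := by group
        _ = ⁅a, b⁆ * (⁅a, b⁆ ^ m * (b * a ^ m)) * a := by rw [ih]
        _ = ⁅a, b⁆ ^ (m + 1) * (b * a ^ (m + 1)) := by rw [pow_succ', pow_succ a]; group
  have hzp : ∀ a ∈ commutator G, ∀ b ∈ commutator G, ⁅a, b⁆ ^ p = 1 := by
    intro a ha b hb
    have h1 := hswap a ha b hb p
    rw [hKc _ (hpK a ha) b hb] at h1
    exact mul_eq_right.1 h1.symm
  rcases hp.eq_two_or_odd' with hp2 | hodd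
  · refine ⟨x, hx, hx', Or.inr ⟨hp2, ?_⟩⟩
    obtain ⟨s, hs, e⟩ := hsurj _ (hpK x hx)
    have h1 : (x ^ p) ^ p = 1 := by
      rw [← e, show x⁻¹ * (s * x * s⁻¹) = ⁅x⁻¹, s⁆ by
        rw [commutatorElement_def, inv_inv]; simp only [mul_assoc]]
      exact hzp _ (inv_mem hx) _ hs
    rw [hp2] at h1
    rwa [← pow_mul] at h1
  · -- the power map is a homomorphism into `K`
    have hpow : ∀ a ∈ commutator G, ∀ b ∈ commutator G, (a * b) ^ p = a ^ p * b ^ p := by
      intro a ha b hb
      have hz := hab (commutator_mem_commutator hb ha)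
      have key : ∀ m : ℕ, (a * b) ^ m = ⁅b, a⁆ ^ (m.choose 2) * (a ^ m * b ^ m) := by
        intro m
        induction m with
        | zero => simp
        | succ m ih =>
          have hc2 : (m + 1).choose 2 = m.choose 2 + m := by
            rw [Nat.choose_succ_succ, Nat.choose_one_right]; ring
          calc (a * b) ^ (m + 1) = (a * b) ^ m * (a * b) := pow_succ _ _
            _ = ⁅b, a⁆ ^ (m.choose 2) * a ^ m * (b ^ m * a) * b := by rw [ih]; group
            _ = ⁅b, a⁆ ^ (m.choose 2) * a ^ m * (⁅b, a⁆ ^ m * (a * b ^ m)) * b := by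
              rw [hswap b hb a ha m]
            _ = ⁅b, a⁆ ^ (m.choose 2) * (a ^ m * ⁅b, a⁆ ^ m) * a * b ^ m * b := by group
            _ = ⁅b, a⁆ ^ (m.choose 2) * (⁅b, a⁆ ^ m * a ^ m) * a * b ^ m * b := by
              rw [hKc _ (pow_mem hz m) _ (pow_mem ha m)]
            _ = ⁅b, a⁆ ^ ((m + 1).choose 2) * (a ^ (m + 1) * b ^ (m + 1)) := by
              rw [hc2, pow_add, pow_succ a, pow_succ b]; group
      rw [key p]
      obtain ⟨c, hc⟩ : p ∣ p.choose 2 := hp.dvd_choose_self (by norm_num) (by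
        obtain ⟨d, hd⟩ := hodd
        have := hp.two_le
        omega)
      rw [hc, pow_mul, hzp b hb a ha, one_pow, one_mul]
    let f : commutator G →* K :=
      { toFun := fun a => ⟨(a : G) ^ p, hpK a a.2⟩
        map_one' := Subtype.ext (one_pow p)
        map_mul' := fun a b => Subtype.ext (hpow a a.2 b b.2) }
    have hKq : Nat.card K < K.relIndex (commutator G) := by
      have := h.section_bound hq ⊥ K bot_le le_rfl hcen.le
      rwa [relIndex_bot_left] at this
    by_contra hno
    push Not at hno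
    have hker : f.ker ≤ K.subgroupOf (commutator G) := fun a ha => by
      rw [mem_subgroupOf]
      by_contra haK
      exact (hno a a.2 haK).1 (congrArg Subtype.val (MonoidHom.mem_ker.1 ha))
    have h1 : (K.subgroupOf (commutator G)).index ≤ f.ker.index :=
      Nat.le_of_dvd (Nat.pos_of_ne_zero index_ne_zero_of_finite) (index_dvd_of_le hker)
    rw [index_ker] at h1
    have h2 : Nat.card f.range ≤ Nat.card K := Subgroup.card_le_card_group f.range
    change K.relIndex (commutator G) ≤ _ at h1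
    omega

end Cfsg.Agent.H23.OneClass
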