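import Cfsg.Agent.H23.OneClass.Basic
import Cfsg.Agent.H24.MaxClass

/-!
# One class outside `K`, with `[G' : K] = 2` and `G'` a 2-group
-/

set_option autoImplicit false
set_option linter.style.haveILetI false

namespace Cfsg.Agent.H23.OneClass

open Subgroup
open scoped commutatorElement

universe u

variable {G : Type u} [Group G] [Finite G] {K : Subgroup G}

/-- Products of two elements outside `K`. -/
theorem mul_mem_of_relIndex_two (hK : K ≤ commutator G)
    (hq : K.relIndex (commutator G) = 2) {a b : G} (ha : a ∈ commutator G) (ha' : a ∉ K)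
    (hb : b ∈ commutator G) (hb' : b ∉ K) : a * b ∈ K := by
  have h := mul_mem_iff_of_index_two (H := K.subgroupOf (commutator G)) hq
    (a := ⟨a, ha⟩) (b := ⟨b, hb⟩)
  simp only [mem_subgroupOf, Subgroup.coe_mul] at h
  exact h.2 ⟨fun e => absurd e ha', fun e => absurd e hb'⟩

/-- `G'/K` of order two is central. -/
theorem IsOneClass.commutator_mem (h : IsOneClass K) (hq : K.relIndex (commutator G) = 2) {y : G}
    (hy : y ∈ commutator G) (g : G) : ⁅y, g⁆ ∈ K := by
  haveI := h.normal
  by_cases hyK : y ∈ K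
  · rw [commutatorElement_def, mul_assoc, mul_assoc]
    exact mul_mem hyK (by simpa [mul_assoc] using Normal.conj_mem h.normal _ (inv_mem hyK) g)
  · have h1 : g * y⁻¹ * g⁻¹ ∈ commutator G := Normal.conj_mem inferInstance _ (inv_mem hy) g
    have h2 : g * y⁻¹ * g⁻¹ ∉ K := fun e => hyK (by
      have := Normal.conj_mem h.normal _ (inv_mem e) g⁻¹
      simpa [mul_assoc] using this)
    have := mul_mem_of_relIndex_two h.le hq hy hyK h1 h2
    simpa [commutatorElement_def, mul_assoc] using this

/-- Squares lie in `G'`. -/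
theorem IsOneClass.sq_mem (h : IsOneClass K) (hq : K.relIndex (commutator G) = 2) (a : G) :
    a ^ 2 ∈ commutator G := by
  haveI := h.normal
  refine h.center_le _ fun b => ?_
  have hy : ⁅a, b⁆ ∈ commutator G :=
    commutator_mem_commutator (mem_top _) (mem_top _)
  have e : ⁅a ^ 2, b⁆ = ⁅a, ⁅a, b⁆⁆ * (⁅a, b⁆ * ⁅a, b⁆) := by
    simp only [commutatorElement_def, sq]; group
  rw [e]
  refine mul_mem ?_ ?_
  · rw [← commutatorElement_inv]
    exact inv_mem (h.commutator_mem hq hy a)
  · by_cases hyK : ⁅a, b⁆ ∈ K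
    · exact mul_mem hyK hyK
    · exact mul_mem_of_relIndex_two h.le hq hy hyK hy hyK

/-- If `K` is central and nontrivial then `|G : G'| ≤ 4`. -/
theorem IsOneClass.index_le_four_of_central (h : IsOneClass K)
    (hq : K.relIndex (commutator G) = 2) (hK : K ≠ ⊥) (hcen : K ≤ center G) :
    (commutator G).index ≤ 4 := by
  classical
  haveI := h.normal
  by_contra hlt
  obtain ⟨x, hx, hx'⟩ := h.ne
  -- `x` is central
  have hxc : ∀ c, c * x = x * c := by
    intro c
    let T : Subgroup G := (centralizer {(c : G ⧸ K)}).comap (QuotientGroup.mk' K)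
    have hT : ∀ s, s ∈ T ↔ ⁅s, c⁆ ∈ K := by
      intro s
      rw [mem_comap, mem_centralizer_singleton_iff, ← commutatorElement_eq_one_iff_mul_comm,
        ← QuotientGroup.eq_one_iff]
      rfl
    suffices ∃ a b, a ∈ T ∧ b ∈ T ∧ ⁅a, b⁆ ∉ K by
      obtain ⟨a, b, ha, hb, hab⟩ := this
      have hy : ⁅a, b⁆ ∈ commutator G := commutator_mem_commutator (mem_top _) (mem_top _)
      have hfix : ∀ s, s ∈ T → ∃ k ∈ center G, c * s * c⁻¹ = s * k := by
        intro s hs
        refine ⟨s⁻¹ * ⁅s, c⁆⁻¹ * s, Normal.conj_mem' inferInstance _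
          (hcen (inv_mem ((hT s).1 hs))) s, ?_⟩
        rw [commutatorElement_def]; group
      obtain ⟨k, hk, hk'⟩ := hfix a ha
      obtain ⟨l, hl, hl'⟩ := hfix b hb
      have h1 : c * ⁅a, b⁆ * c⁻¹ = ⁅a, b⁆ := by
        rw [← MulAut.conj_apply, map_commutatorElement, MulAut.conj_apply, MulAut.conj_apply,
          hk', hl', commutatorElement_def, commutatorElement_def, mul_inv_rev, mul_inv_rev]
        have hkc := mem_center_iff.1 hk
        have hlc := mem_center_iff.1 hl
        calc a * k * (b * l) * (k⁻¹ * a⁻¹) * (l⁻¹ * b⁻¹)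
            = a * (k * (b * l)) * k⁻¹ * a⁻¹ * (l⁻¹ * b⁻¹) := by group
          _ = a * ((b * l) * k) * k⁻¹ * a⁻¹ * (l⁻¹ * b⁻¹) := by rw [hkc (b * l)]
          _ = a * b * (l * a⁻¹) * l⁻¹ * b⁻¹ := by group
          _ = a * b * (a⁻¹ * l) * l⁻¹ * b⁻¹ := by rw [hlc a⁻¹]
          _ = a * b * a⁻¹ * b⁻¹ := by group
      have h2 : x⁻¹ * ⁅a, b⁆ ∈ K := by
        refine mul_mem_of_relIndex_two h.le hq (inv_mem hx) (fun e => hx' ?_) hy hab
        simpa using inv_mem e
      have hkc := mem_center_iff.1 (hcen h2) c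
      have e : ⁅a, b⁆ = x * (x⁻¹ * ⁅a, b⁆) := by group
      rw [e] at h1
      have h3 : c * x * (x⁻¹ * ⁅a, b⁆) = x * c * (x⁻¹ * ⁅a, b⁆) := by
        calc c * x * (x⁻¹ * ⁅a, b⁆) = c * (x * (x⁻¹ * ⁅a, b⁆)) * c⁻¹ * c := by group
          _ = x * (x⁻¹ * ⁅a, b⁆) * c := by rw [h1]
          _ = x * ((x⁻¹ * ⁅a, b⁆) * c) := by group
          _ = x * (c * (x⁻¹ * ⁅a, b⁆)) := by rw [hkc]
          _ = x * c * (x⁻¹ * ⁅a, b⁆) := by group
      exact mul_right_cancel h3
    by_contra hno
    push Not at hno
    -- cosets of the commutant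
    have htwo : ∀ (d : G) (S : Subgroup G), (∀ s, s ∈ S ↔ ⁅s, d⁆ ∈ K) →
        ∀ s t, s ∉ S → t ∉ S → s⁻¹ * t ∈ S := by
      intro d S hS s t hs ht
      rw [hS]
      have hy : ⁅s, d⁆ ∈ commutator G := commutator_mem_commutator (mem_top _) (mem_top _)
      have hz : ⁅t, d⁆ ∈ commutator G := commutator_mem_commutator (mem_top _) (mem_top _)
      have hyK : ⁅s, d⁆ ∉ K := fun e => hs ((hS s).2 e)
      have hzK : ⁅t, d⁆ ∉ K := fun e => ht ((hS t).2 e)
      have h1 : ⁅s, d⁆⁻¹ * ⁅t, d⁆ ∈ K := mul_mem_of_relIndex_two h.le hq (inv_mem hy)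
        (fun e => hyK (by simpa using inv_mem e)) hz hzK
      have e : ⁅s⁻¹ * t, d⁆ = s⁻¹ * (⁅t, d⁆ * ⁅s, d⁆⁻¹) * s⁻¹⁻¹ := by
        simp only [commutatorElement_def]; group
      rw [e]
      refine Normal.conj_mem h.normal _ ?_ _
      have := Normal.conj_mem h.normal _ h1 ⁅s, d⁆
      rwa [mul_inv_cancel_left] at this
    have htwoT := htwo c T hT
    by_cases htop : ∀ g, g ∈ T
    · have hle : commutator G ≤ K := by
        rw [_root_.commutator_def, commutator_le]
        exact fun a _ b _ => hno a b (htop a) (htop b)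
      exact hx' (hle hx)
    push Not at htop
    obtain ⟨b, hb⟩ := htop
    let B : Subgroup G := (centralizer {(b : G ⧸ K)}).comap (QuotientGroup.mk' K)
    have hB : ∀ s, s ∈ B ↔ ⁅s, b⁆ ∈ K := by
      intro s
      rw [mem_comap, mem_centralizer_singleton_iff, ← commutatorElement_eq_one_iff_mul_comm,
        ← QuotientGroup.eq_one_iff]
      rfl
    have hN : ∀ s, s ∈ T → s ∈ B → s ∈ commutator G := by
      intro s hsT hsB
      refine h.center_le s fun g => ?_
      let S : Subgroup G := (centralizer {(s : G ⧸ K)}).comap (QuotientGroup.mk' K)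
      have hS : ∀ t, t ∈ S ↔ ⁅t, s⁆ ∈ K := by
        intro t
        rw [mem_comap, mem_centralizer_singleton_iff, ← commutatorElement_eq_one_iff_mul_comm,
          ← QuotientGroup.eq_one_iff]
        rfl
      have hg : g ∈ S := by
        by_cases hgT : g ∈ T
        · exact (hS g).2 (hno g s hgT hsT)
        · have hbS : b ∈ S := (hS b).2 (by
            rw [← commutatorElement_inv]; exact inv_mem ((hB s).1 hsB))
          have := htwoT b g hb hgT
          have h3 := mul_mem hbS ((hS _).2 (hno _ s this hsT))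
          simpa using h3
      rw [← commutatorElement_inv]
      exact inv_mem ((hS g).1 hg)
    -- at most four cosets of `G'`
    have hsurj : ∃ f : Bool × Bool → G ⧸ commutator G, Function.Surjective f := by
      by_cases hTB : ∀ s, s ∈ T → s ∈ B
      · refine ⟨fun v => if v.1 then (b : G ⧸ commutator G) else 1, fun z => ?_⟩
        induction z using QuotientGroup.induction_on with
        | H g =>
          by_cases hgT : g ∈ T
          · exact ⟨(false, false), ((QuotientGroup.eq_one_iff _).2 (hN g hgT (hTB g hgT))).symm⟩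
          · refine ⟨(true, false), QuotientGroup.eq.2 ?_⟩
            exact hN _ (htwoT b g hb hgT) (hTB _ (htwoT b g hb hgT))
      · push Not at hTB
        obtain ⟨t, htT, htB⟩ := hTB
        have hclass : ∀ s, s ∈ T → (s : G ⧸ commutator G) = 1 ∨
            (s : G ⧸ commutator G) = (t : G ⧸ commutator G) := by
          intro s hs
          by_cases hsB : s ∈ B
          · exact Or.inl ((QuotientGroup.eq_one_iff _).2 (hN s hs hsB))
          · refine Or.inr (QuotientGroup.eq.2 (hN _ (mul_mem (inv_mem hs) htT) ?_))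
            exact htwo b B hB s t hsB htB
        refine ⟨fun v => (if v.1 then (b : G ⧸ commutator G) else 1) *
          (if v.2 then (t : G ⧸ commutator G) else 1), fun z => ?_⟩
        induction z using QuotientGroup.induction_on with
        | H g =>
          by_cases hgT : g ∈ T
          · rcases hclass g hgT with e | e
            · exact ⟨(false, false), by simp [e]⟩
            · exact ⟨(false, true), by simp [e]⟩
          · have hd := htwoT b g hb hgT
            have eg : (g : G ⧸ commutator G) =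
                (b : G ⧸ commutator G) * ((b⁻¹ * g : G) : G ⧸ commutator G) := by
              rw [← QuotientGroup.mk_mul, mul_inv_cancel_left]
            rcases hclass _ hd with e | e
            · exact ⟨(true, false), by rw [eg, e]; simp⟩
            · exact ⟨(true, true), by rw [eg, e]; simp⟩
    obtain ⟨f, hf⟩ := hsurj
    have h4 := Nat.card_le_card_of_surjective f hf
    rw [← index_eq_card] at h4
    exact hlt (by simpa using h4)
  -- so the class of `x` is trivial
  have hc := h.card_eq hx hx'
  rw [hq, show centralizer ({x} : Set G) = ⊤ from eq_top_iff.2 fun c _ =>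
    mem_centralizer_singleton_iff.2 (hxc c), card_top] at hc
  have hK1 : Nat.card K = 1 := by
    have := Nat.card_pos (α := G)
    simp only [show 2 - 1 = 1 from rfl, mul_one] at hc
    exact (Nat.mul_eq_left this.ne').1 hc
  exact hK (eq_bot_of_card_eq K hK1)

/-- Every element of `G' \ K` satisfies `x ^ 4 = 1`. -/
theorem IsOneClass.pow_four_of_relIndex_two (h : IsOneClass K) (hN : IsPGroup 2 (commutator G))
    (hq : K.relIndex (commutator G) = 2) {x : G} (hx : x ∈ commutator G) (hx' : x ∉ K) :
    x ^ 4 = 1 := by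
  classical
  haveI := h.normal
  haveI := Fact.mk Nat.prime_two
  have hNcard : Nat.card (commutator G) = Nat.card K * 2 := by
    rw [← hq, ← card_mul_index (K.subgroupOf (commutator G)),
      Nat.card_congr (subgroupOfEquivOfLe h.le).toEquiv]
    rfl
  suffices hK2 : Nat.card K ≤ 2 by
    have h1 : orderOf x ∣ Nat.card (commutator G) := Subgroup.orderOf_dvd_natCard _ hx
    apply orderOf_dvd_iff_pow_eq_one.1
    rw [hNcard] at h1
    have := Nat.card_pos (α := K)
    rcases (by omega : Nat.card K = 1 ∨ Nat.card K = 2) with e | e <;> rw [e] at h1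
    · exact h1.trans (by norm_num)
    · exact h1
  have hG : IsPGroup 2 G := by
    intro g
    obtain ⟨k, hk⟩ := hN ⟨g ^ 2, h.sq_mem hq g⟩
    refine ⟨k + 1, ?_⟩
    have := congrArg Subtype.val hk
    rw [pow_succ', pow_mul]
    simpa using this
  by_cases hK : K = ⊥
  · rw [hK, card_bot]; norm_num
  -- reduce to central `K`
  have h4 : (commutator G).index ≤ 4 := by
    haveI := hG.isNilpotent
    haveI : Group.IsNilpotent (⊤ : Subgroup G) := (hG.to_subgroup ⊤).isNilpotent
    set Γ := ⁅K, (⊤ : Subgroup G)⁆ with hΓ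
    have hΓK : Γ ≤ K := commutator_le_left K ⊤
    have hne : ¬ K ≤ Γ := fun e => hK (eq_bot_of_le_commutator ⊤ K le_top e)
    obtain ⟨h1, h2, h3⟩ := h.quotient Γ hΓK
    have hidx : (commutator (G ⧸ Γ)).index = (commutator G).index := by
      rw [h2]
      exact index_map_eq (H := commutator G) (QuotientGroup.mk'_surjective Γ)
        (by rw [QuotientGroup.ker_mk']; exact hΓK.trans h.le)
    rw [← hidx]
    refine h1.index_le_four_of_central ?_ ?_ ?_
    · rw [h2, ← relIndex_comap, comap_map_eq, QuotientGroup.ker_mk', sup_of_le_left hΓK]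
      exact hq
    · intro e
      apply hne
      intro k hk
      have : (k : G ⧸ Γ) ∈ K.map (QuotientGroup.mk' Γ) := ⟨k, hk, rfl⟩
      rw [e, mem_bot] at this
      exact (QuotientGroup.eq_one_iff k).1 this
    · rintro _ ⟨k, hk, rfl⟩
      rw [mem_center_iff]
      intro z
      induction z using QuotientGroup.induction_on with
      | H g =>
        symm
        rw [← commutatorElement_eq_one_iff_mul_comm, QuotientGroup.mk'_apply,
          show (⁅(k : G ⧸ Γ), (g : G ⧸ Γ)⁆) = ((⁅k, g⁆ : G) : G ⧸ Γ) from rfl,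
          QuotientGroup.eq_one_iff]
        exact commutator_mem_commutator hk (mem_top g)
  -- `G` has a cyclic subgroup of index two
  have hna : ¬ IsMulCommutative G := fun hc => hx' (by
    have hbot : commutator G = ⊥ := by
      rw [_root_.commutator_def, commutator_eq_bot_iff_le_centralizer]
      exact fun a _ => mem_centralizer_iff.2 fun b _ => hc.is_comm.comm b a
    rw [hbot, mem_bot] at hx
    rw [hx]; exact one_mem K)
  have h4' : (commutator G).index = 4 :=
    le_antisymm h4 (H24.sq_le_index_commutator hG hna)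
  obtain ⟨k, hk⟩ := IsPGroup.iff_card.1 hG
  have hk2 : 2 ≤ k := by
    have h5 : 2 ^ 2 ∣ 2 ^ k := by
      have := index_dvd_card (commutator G)
      rwa [hk, h4'] at this
    exact (Nat.pow_dvd_pow_iff_le_right (by norm_num)).1 h5
  obtain ⟨⟨C, hC, hCi⟩, -, -⟩ := H24.two_group_commutator_index_four G k hk hk2 h4'
  haveI := normal_of_index_eq_two hCi
  haveI := hC
  have hNC : commutator G ≤ C := by
    rw [_root_.commutator_def, commutator_le]
    intro a _ b _
    rw [← QuotientGroup.eq_one_iff]
    have hcyc : IsCyclic (G ⧸ C) := isCyclic_of_prime_card (p := 2) (by rw [← index_eq_card, hCi])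
    letI := hcyc.commGroup
    show QuotientGroup.mk' C ⁅a, b⁆ = 1
    rw [map_commutatorElement, commutatorElement_eq_one_iff_mul_comm, mul_comm]
  have hCx : C ≤ centralizer ({x} : Set G) := fun c hc => by
    rw [mem_centralizer_singleton_iff]
    letI := hC.commGroup
    exact congrArg Subtype.val (mul_comm (⟨c, hc⟩ : C) ⟨x, hNC hx⟩)
  have hc := h.card_eq hx hx'
  simp only [hq, show 2 - 1 = 1 from rfl, mul_one] at hc
  have h6 := card_le_of_le hCx
  have h7 := card_mul_index C
  rw [hCi] at h7
  have h8 := Nat.card_pos (α := C)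
  by_contra hK2
  have : Nat.card C * 3 ≤ Nat.card (centralizer ({x} : Set G)) * Nat.card K :=
    Nat.mul_le_mul h6 (by omega)
  omega

end Cfsg.Agent.H23.OneClass
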