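import Cfsg.Agent.H23.OneClass.IndexTwo
import Cfsg.Agent.H23.OneClass.IndexLarge
import Cfsg.Agent.H23.OneClass.FpfFour
import Cfsg.Agent.H21.ThompsonFpf
import Cfsg.Agent.H22.TateComplement
import Cfsg.Agent.H24.PGroupBasic
import Cfsg.Agent.H19.Misc

/-!
# One class outside `K` forces solvability
-/

set_option autoImplicit false
set_option linter.style.haveILetI false

namespace Cfsg.Agent.H23.OneClass

open Subgroup
open scoped commutatorElement

universe u

variable {G : Type u} [Group G] [Finite G] {K : Subgroup G}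

/-- When `G'` is a `p`-group, the elements of `G' \ K` have order `p`, or `p = 2` and order
dividing four. -/
theorem IsOneClass.order_bound (h : IsOneClass K) {p : ℕ} (hp : p.Prime)
    (hN : IsPGroup p (commutator G)) (hpK : ∀ y ∈ commutator G, y ^ p ∈ K) {x : G}
    (hx : x ∈ commutator G) (hx' : x ∉ K) : x ^ p = 1 ∨ (p = 2 ∧ x ^ 4 = 1) := by
  haveI := h.normal
  haveI := Fact.mk hp
  obtain ⟨k, hk⟩ := IsPGroup.iff_card.1 hN
  obtain ⟨n, -, hn⟩ := (Nat.dvd_prime_pow hp).1 (hk ▸ relIndex_dvd_card K (commutator G))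
  have hn0 : n ≠ 0 := by
    rintro rfl
    exact hx' (relIndex_eq_one.1 (by simpa using hn) hx)
  have hq2 : 2 ≤ K.relIndex (commutator G) := by
    rw [hn]; exact hp.two_le.trans (Nat.le_self_pow hn0 p)
  rcases eq_or_lt_of_le hq2 with hq | hq
  · have hp2 : p = 2 := by
      have hdvd : p ∣ 2 := by rw [hq, hn]; exact dvd_pow_self p hn0
      exact (Nat.prime_dvd_prime_iff_eq hp Nat.prime_two).1 hdvd
    subst hp2
    exact Or.inr ⟨rfl, h.pow_four_of_relIndex_two hN hq.symm hx hx'⟩
  · haveI := hN.isNilpotent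
    obtain ⟨y, hy, hy', e⟩ := h.order_of_relIndex_gt_two hp hN hq hpK
    obtain ⟨s, rfl⟩ := h.class_eq y hy hy' x hx hx'
    rcases e with e | ⟨e1, e2⟩
    · exact Or.inl (by rw [conj_pow, e, mul_one, mul_inv_cancel])
    · exact Or.inr ⟨e1, by rw [conj_pow, e2, mul_one, mul_inv_cancel]⟩

/-- A prime `p` with all `p`-th powers of `G'` in `K`, and all of `G' \ K` `p`-elements of one
order. -/
theorem IsOneClass.exists_prime (h : IsOneClass K) :
    ∃ p, p.Prime ∧ (∀ y ∈ commutator G, y ^ p ∈ K) ∧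
      ∃ v, ∀ y ∈ commutator G, y ∉ K → orderOf y = p ^ v := by
  classical
  haveI := h.normal
  obtain ⟨x, hx, hx'⟩ := h.ne
  set n := orderOf (x : G ⧸ K)
  have hn1 : n ≠ 1 := fun e => hx' ((QuotientGroup.eq_one_iff x).1 (orderOf_eq_one_iff.1 e))
  obtain ⟨p, hp, m, hm⟩ := Nat.exists_prime_and_dvd hn1
  have hn0 : 0 < n := orderOf_pos _
  have hxm : x ^ m ∈ commutator G ∧ x ^ m ∉ K ∧ (x ^ m) ^ p ∈ K := by
    refine ⟨pow_mem hx m, fun e => ?_, ?_⟩
    · have h1 : (x : G ⧸ K) ^ m = 1 := (QuotientGroup.eq_one_iff (x ^ m)).2 e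
      have h2 := orderOf_dvd_of_pow_eq_one h1
      rcases Nat.eq_zero_or_pos m with rfl | hm0
      · omega
      · have h3 := Nat.le_of_dvd hm0 h2
        have h4 : 2 * m ≤ p * m := Nat.mul_le_mul_right m hp.two_le
        change n ≤ m at h3
        omega
    · rw [← pow_mul, mul_comm, ← hm, ← QuotientGroup.eq_one_iff, QuotientGroup.mk_pow]
      exact pow_orderOf_eq_one _
  obtain ⟨hy, hy', hyp⟩ := hxm
  have hall : ∀ z ∈ commutator G, z ^ p ∈ K := by
    intro z hz
    by_cases hzK : z ∈ K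
    · exact pow_mem hzK p
    · obtain ⟨s, rfl⟩ := h.class_eq _ hy hy' z hz hzK
      rw [conj_pow]
      exact Normal.conj_mem h.normal _ hyp s
  refine ⟨p, hp, hall, (orderOf (x ^ m)).factorization p, fun z hz hzK => ?_⟩
  obtain ⟨s, rfl⟩ := h.class_eq _ hy hy' z hz hzK
  have e : orderOf (s * x ^ m * s⁻¹) = orderOf (x ^ m) :=
    MulEquiv.orderOf_eq (MulAut.conj s) _
  rw [e]
  -- the order of `y = x ^ m` is a power of `p`
  generalize x ^ m = y at hy hy' hyp ⊢
  set o := orderOf y with ho
  set b := o / p ^ o.factorization p with hb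
  have ho0 : o ≠ 0 := (orderOf_pos y).ne'
  have hcop : Nat.Coprime p b := hp.coprime_iff_not_dvd.2 (Nat.not_dvd_ordCompl hp ho0)
  have hyb : y ^ b ∉ K := fun e => hy' (by
    have h1 : y ^ ((Nat.gcd p b : ℕ) : ℤ) ∈ K := by
      rw [Nat.gcd_eq_gcd_ab, zpow_add, zpow_mul, zpow_mul, zpow_natCast, zpow_natCast]
      exact mul_mem (zpow_mem hyp _) (zpow_mem e _)
    rwa [hcop, Nat.cast_one, zpow_one] at h1)
  obtain ⟨t, ht⟩ := h.class_eq y hy hy' _ (pow_mem hy b) hyb
  have h1 : orderOf (y ^ b) = o := ht ▸ MulEquiv.orderOf_eq (MulAut.conj t) y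
  have h2 : (y ^ b) ^ p ^ o.factorization p = 1 := by
    rw [← pow_mul, mul_comm, Nat.ordProj_mul_ordCompl_eq_self, ho, pow_orderOf_eq_one]
  have h3 := orderOf_dvd_of_pow_eq_one h2
  rw [h1] at h3
  exact Nat.dvd_antisymm h3 (Nat.ordProj_dvd o p)

/-- **Main theorem.** -/
theorem IsOneClass.isSolvable (h : IsOneClass K) : Group.IsSolvable G := by
  classical
  haveI := h.normal
  obtain ⟨p, hp, hpK, v, hv⟩ := h.exists_prime
  haveI := Fact.mk hp
  obtain ⟨x0, hx0, hx0'⟩ := h.ne
  set N := commutator G with hNdef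
  -- a Sylow subgroup through `x0`
  have hzp : IsPGroup p (zpowers x0) :=
    IsPGroup.of_card (n := v) (by rw [Nat.card_zpowers, hv x0 hx0 hx0'])
  obtain ⟨S, hS⟩ := hzp.exists_le_sylow
  haveI := S.isPGroup'.isNilpotent
  -- `x ∈ (N ∩ S) \ K`, central in `S` modulo `K`
  obtain ⟨x, hxS, hxN, hxK, hxc⟩ : ∃ x ∈ (S : Subgroup G), x ∈ N ∧ x ∉ K ∧
      ∀ s ∈ (S : Subgroup G), ⁅s, x⁆ ∈ K := by
    set π := (QuotientGroup.mk' K).comp (S : Subgroup G).subtype
    haveI : Group.IsNilpotent π.range :=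
      Group.nilpotent_of_surjective π.rangeRestrict π.rangeRestrict_surjective
    let A : Subgroup π.range :=
      ((N.map (QuotientGroup.mk' K)) ⊓ π.range).subgroupOf π.range
    haveI : (N.map (QuotientGroup.mk' K)).Normal :=
      Normal.map inferInstance _ (QuotientGroup.mk'_surjective K)
    haveI : A.Normal := by
      refine ⟨fun a ha g => ?_⟩
      rw [mem_subgroupOf] at ha ⊢
      exact ⟨Normal.conj_mem inferInstance _ ha.1 _, (g * a * g⁻¹).2⟩
    have hA : A ≠ ⊥ := by
      intro e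
      have h1 : (⟨π ⟨x0, hS (mem_zpowers x0)⟩, ⟨_, rfl⟩⟩ : π.range) ∈ A :=
        ⟨⟨x0, hx0, rfl⟩, ⟨_, rfl⟩⟩
      rw [e, mem_bot] at h1
      exact hx0' ((QuotientGroup.eq_one_iff x0).1 (congrArg Subtype.val h1))
    obtain ⟨z, hz, hz1⟩ :=
      (bot_or_exists_ne_one (A ⊓ center π.range)).resolve_left (H19.inf_center_ne_bot A hA)
    obtain ⟨⟨_, s, rfl⟩, hzA⟩ : {z' : π.range // z' = z} := ⟨z, rfl⟩
    subst hzA
    obtain ⟨y, hy, hye⟩ := (mem_subgroupOf.1 (mem_inf.1 hz).1).1
    refine ⟨s, s.2, ?_, fun e => hz1 (Subtype.ext ((QuotientGroup.eq_one_iff _).2 e)), ?_⟩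
    · have := QuotientGroup.eq.1 (hye : (y : G ⧸ K) = ((s : G) : G ⧸ K))
      simpa using mul_mem hy (h.le this)
    · intro t ht
      have h2 := congrArg Subtype.val
        (mem_center_iff.1 (mem_inf.1 hz).2 ⟨π ⟨t, ht⟩, ⟨_, rfl⟩⟩)
      rw [← QuotientGroup.eq_one_iff]
      show QuotientGroup.mk' K ⁅t, (s : G)⁆ = 1
      rw [map_commutatorElement, commutatorElement_eq_one_iff_mul_comm]
      exact h2
  -- the class of `x` in `S` is `x (K ∩ S)`
  have hsurjS : ∀ l ∈ K ⊓ (S : Subgroup G),
      ∃ s ∈ (S : Subgroup G), x⁻¹ * (s * x * s⁻¹) = l := by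
    set L := K ⊓ (S : Subgroup G) with hL
    let C := (centralizer ({x} : Set G) ⊓ (S : Subgroup G)).subgroupOf (S : Subgroup G)
    have hmem : ∀ s : (S : Subgroup G), x⁻¹ * ((s : G) * x * (s : G)⁻¹) ∈ L := fun s => by
      refine mem_inf.2 ⟨?_, mul_mem (inv_mem hxS) (mul_mem (mul_mem s.2 hxS) (inv_mem s.2))⟩
      have e : x⁻¹ * ((s : G) * x * (s : G)⁻¹) = x⁻¹ * ⁅(s : G), x⁆ * x⁻¹⁻¹ := by
        rw [commutatorElement_def]; group
      rw [e]
      exact Normal.conj_mem h.normal _ (hxc s s.2) x⁻¹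
    let f : (S : Subgroup G) ⧸ C → L :=
      Quotient.lift (fun s => ⟨_, hmem s⟩) (fun a b e => by
        have e' := mem_centralizer_singleton_iff.1
          (mem_inf.1 (mem_subgroupOf.1 (QuotientGroup.leftRel_apply.1 e))).1
        apply Subtype.ext
        simp only [mul_right_inj]
        simp only [Subgroup.coe_mul, Subgroup.coe_inv] at e'
        calc (a : G) * x * (a : G)⁻¹ = a * (x * ((a : G)⁻¹ * b)) * (b : G)⁻¹ := by group
          _ = a * (((a : G)⁻¹ * b) * x) * (b : G)⁻¹ := by rw [e']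
          _ = b * x * (b : G)⁻¹ := by group)
    have hinj : Function.Injective f := by
      intro a b
      induction a using QuotientGroup.induction_on with
      | H a =>
        induction b using QuotientGroup.induction_on with
        | H b =>
          intro e
          have e' : x⁻¹ * ((a : G) * x * (a : G)⁻¹) = x⁻¹ * ((b : G) * x * (b : G)⁻¹) :=
            congrArg Subtype.val e
          rw [mul_right_inj] at e'
          rw [QuotientGroup.eq, mem_subgroupOf]
          refine mem_inf.2 ⟨?_, (a⁻¹ * b).2⟩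
          rw [mem_centralizer_singleton_iff]
          simp only [Subgroup.coe_mul, Subgroup.coe_inv]
          calc (a : G)⁻¹ * b * x = (a : G)⁻¹ * (b * x * (b : G)⁻¹) * b := by group
            _ = (a : G)⁻¹ * (a * x * (a : G)⁻¹) * b := by rw [e']
            _ = x * ((a : G)⁻¹ * b) := by group
    have hLcard : Nat.card L = p ^ (Nat.card K).factorization p := by
      obtain ⟨l, hl⟩ := IsPGroup.iff_card.1 (S.isPGroup'.to_le (inf_le_right : L ≤ _))
      have h1 : Nat.card L * (S : Subgroup G).relIndex K = Nat.card K := by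
        rw [hL, ← relIndex_bot_left, ← relIndex_bot_left K,
          ← inf_relIndex_left K (S : Subgroup G)]
        exact relIndex_mul_relIndex _ _ _ bot_le inf_le_left
      have h2 : ¬ p ∣ (S : Subgroup G).relIndex K := by
        intro hd
        have e1 : Nat.card L * K.relIndex (S : Subgroup G) = Nat.card (S : Subgroup G) := by
          rw [hL, inf_comm, ← relIndex_bot_left, ← relIndex_bot_left (S : Subgroup G),
            ← inf_relIndex_left (S : Subgroup G) K]
          exact relIndex_mul_relIndex _ _ _ bot_le inf_le_left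
        have e2 : Nat.card K * K.relIndex (S : Subgroup G) ∣ Nat.card G := by
          have e3 : K.relIndex (K ⊔ (S : Subgroup G)) = K.relIndex (S : Subgroup G) := by
            first
            | exact relIndex_sup_left (S : Subgroup G) K
            | (rw [sup_comm]; exact relIndex_sup_right (S : Subgroup G) K)
            | exact relIndex_sup_right _ _
          rw [← e3, ← relIndex_bot_left K, relIndex_mul_relIndex _ _ _ bot_le le_sup_left,
            relIndex_bot_left]
          exact card_subgroup_dvd_card _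
        rw [← h1, ← card_mul_index (S : Subgroup G), mul_right_comm, e1] at e2
        exact S.not_dvd_index (hd.trans (Nat.dvd_of_mul_dvd_mul_left Nat.card_pos e2))
      rw [← h1, Nat.factorization_mul Nat.card_pos.ne'
          (show (S : Subgroup G).relIndex K ≠ 0 from index_ne_zero_of_finite), Finsupp.add_apply,
        Nat.factorization_eq_zero_of_not_dvd h2, add_zero, hl, hp.factorization_pow]
      simp
    have hbound : Nat.card C * Nat.card L ≤ Nat.card (S : Subgroup G) := by
      obtain ⟨a, ha⟩ := IsPGroup.iff_card.1 (S.isPGroup'.to_subgroup C)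
      have hd : Nat.card C ∣ Nat.card (centralizer ({x} : Set G)) := by
        rw [Nat.card_congr (subgroupOfEquivOfLe
          (inf_le_right : centralizer ({x} : Set G) ⊓ (S : Subgroup G) ≤ _)).toEquiv]
        exact card_dvd_of_le inf_le_left
      rw [ha] at hd
      have h3 : Nat.card (centralizer ({x} : Set G)) * Nat.card K * (K.relIndex N - 1) =
          Nat.card G := h.card_eq hxN hxK
      have hr0 : K.relIndex N - 1 ≠ 0 := fun e => by
        rw [e, mul_zero] at h3
        exact Nat.card_pos.ne h3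
      have h4 := congrArg (fun z => z.factorization p) h3
      simp only [Nat.factorization_mul
          (Nat.mul_ne_zero Nat.card_pos.ne' Nat.card_pos.ne') hr0,
        Nat.factorization_mul Nat.card_pos.ne' Nat.card_pos.ne', Finsupp.add_apply] at h4
      have h5 : a ≤ (Nat.card (centralizer ({x} : Set G))).factorization p :=
        (hp.pow_dvd_iff_le_factorization Nat.card_pos.ne').1 hd
      rw [ha, hLcard, Sylow.card_eq_multiplicity, ← pow_add]
      exact Nat.pow_le_pow_right hp.pos (by omega)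
    have hge : Nat.card L ≤ Nat.card ((S : Subgroup G) ⧸ C) := by
      have h1 := card_eq_card_quotient_mul_card_subgroup C
      rw [h1, mul_comm (Nat.card ((S : Subgroup G) ⧸ C))] at hbound
      exact Nat.le_of_mul_le_mul_left hbound Nat.card_pos
    have hbij := (Nat.bijective_iff_injective_and_card f).2
      ⟨hinj, le_antisymm (Nat.card_le_card_of_injective f hinj) hge⟩
    intro l hl
    obtain ⟨z, hz⟩ := hbij.2 ⟨l, hl⟩
    induction z using QuotientGroup.induction_on with
    | H s => exact ⟨s, s.2, congrArg Subtype.val hz⟩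
  -- `K` has a normal `p`-complement `R`
  obtain ⟨P, R0, hR0n, hR0c⟩ : Cfsg.HasNormalPComplement p K := by
    refine H22.hasNormalPComplement_of_inf_le_frattini S K fun l hl => ?_
    obtain ⟨s, hs, e⟩ := hsurjS l hl
    refine ⟨⁅(⟨x, hxS⟩ : (S : Subgroup G))⁻¹, ⟨s, hs⟩⁆,
      H24.commutator_le_frattini S.isPGroup'
        (commutator_mem_commutator (mem_top _) (mem_top _)), ?_⟩
    rw [← e]
    simp [commutatorElement_def, mul_assoc]
  set R := R0.map K.subtype with hR
  have hRK : R ≤ K := map_subtype_le R0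
  have hR0idx : R0.index = Nat.card (P : Subgroup K) := hR0c.symm.index_eq_card
  have hR0p : ¬ p ∣ Nat.card R0 := by
    have := P.not_dvd_index
    rwa [hR0c.index_eq_card] at this
  have hRcard : Nat.card R = Nat.card R0 := card_map_of_injective (subtype_injective K)
  haveI := hR0n
  -- `R` is the set of `p'`-elements of `K`
  have hRmem : ∀ k, k ∈ R ↔ k ∈ K ∧ ¬ p ∣ orderOf k := by
    intro k
    constructor
    · rintro ⟨r, hr, rfl⟩
      refine ⟨r.2, fun hd => hR0p (hd.trans ?_)⟩
      rw [coe_subtype, orderOf_coe]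
      exact Subgroup.orderOf_dvd_natCard R0 hr
    · rintro ⟨hk, hkp⟩
      refine ⟨⟨k, hk⟩, ?_, rfl⟩
      rw [SetLike.mem_coe, ← QuotientGroup.eq_one_iff, ← orderOf_eq_one_iff]
      obtain ⟨a, ha⟩ := IsPGroup.iff_card.1 P.isPGroup'
      have h1 : orderOf ((⟨k, hk⟩ : K) : K ⧸ R0) ∣ p ^ a := by
        rw [← ha, ← hR0idx, index_eq_card]
        exact orderOf_dvd_natCard _
      have h2 : orderOf ((⟨k, hk⟩ : K) : K ⧸ R0) ∣ orderOf k := by
        rw [← Subgroup.orderOf_mk k hk]
        exact orderOf_map_dvd (QuotientGroup.mk' R0) _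
      refine Nat.eq_one_of_dvd_coprimes ?_ h1 h2
      exact (Nat.Prime.coprime_iff_not_dvd hp).2 hkp |>.pow_left a
  haveI hRn : R.Normal := ⟨fun r hr g => by
    rw [hRmem] at hr ⊢
    refine ⟨Normal.conj_mem h.normal r hr.1 g, ?_⟩
    rw [show orderOf (g * r * g⁻¹) = orderOf r from MulEquiv.orderOf_eq (MulAut.conj g) r]
    exact hr.2⟩
  -- `x` acts on `R` without fixed points
  have hfpf : ∀ r ∈ R, x * r * x⁻¹ = r → r = 1 := by
    intro r hr e
    have hcomm : Commute x r := mul_inv_eq_iff_eq_mul.1 e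
    have hrp := ((hRmem r).1 hr).2
    have hxr : x * r ∉ K := fun e' => hxK (by
      simpa using mul_mem e' (inv_mem (hRK hr)))
    have h1 := hv _ (mul_mem hxN (h.le (hRK hr))) hxr
    have hcop : (orderOf x).Coprime (orderOf r) := by
      rw [hv x hxN hxK]
      exact ((Nat.Prime.coprime_iff_not_dvd hp).2 hrp).pow_left v
    rw [hcomm.orderOf_mul_eq_mul_orderOf_of_coprime hcop, hv x hxN hxK] at h1
    rw [← orderOf_eq_one_iff]
    exact (Nat.mul_eq_left (pow_pos hp.pos v).ne').1 h1
  -- pass to `G / R`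
  obtain ⟨h', hN', hK'⟩ := h.quotient R hRK
  have hNp : IsPGroup p (commutator (G ⧸ R)) := by
    rw [hN']
    rintro ⟨_, y, hy, rfl⟩
    obtain ⟨a, ha⟩ := IsPGroup.iff_card.1 P.isPGroup'
    have h1 : (⟨y ^ p, hpK y hy⟩ : K) ^ p ^ a ∈ R0 := by
      rw [← ha, ← hR0idx]
      exact pow_index_mem R0 _
    refine ⟨a + 1, Subtype.ext ?_⟩
    show QuotientGroup.mk' R y ^ p ^ (a + 1) = 1
    rw [← map_pow, QuotientGroup.mk'_apply, QuotientGroup.eq_one_iff, pow_succ', pow_mul]
    exact ⟨_, h1, rfl⟩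
  have hpK' : ∀ y ∈ commutator (G ⧸ R), y ^ p ∈ K.map (QuotientGroup.mk' R) := by
    rw [hN']
    rintro _ ⟨y, hy, rfl⟩
    exact ⟨y ^ p, hpK y hy, map_pow _ _ _⟩
  have hxpow : ∀ m, (x : G ⧸ R) ^ m = 1 → x ^ m = 1 := by
    intro m e
    have h1 : x ^ m ∈ R := (QuotientGroup.eq_one_iff _).1 (by rwa [QuotientGroup.mk_pow])
    exact hfpf _ h1 (by group)
  have hord := h'.order_bound hp hNp hpK' (x := (x : G ⧸ R))
    (hN' ▸ ⟨x, hxN, rfl⟩) (fun e => hxK ((hK' x).1 e))
  -- `R` is solvable
  have hRsol : Group.IsSolvable R := by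
    rcases hord with e | ⟨-, e⟩
    · haveI : Group.IsNilpotent R := H21.isNilpotent_of_fpf_action
        (MulAut.conjNormal : G →* MulAut R) hp (hxpow _ e)
        (fun r hr => Subtype.ext (hfpf r r.2 (by rw [← MulAut.conjNormal_apply, hr])))
      infer_instance
    · have hx4 := hxpow _ e
      refine isSolvable_of_fpf_four (Nat.card R) R (MulAut.conjNormal x) le_rfl ⟨fun r => ?_,
        fun r hr => Subtype.ext (hfpf r r.2 (by rw [← MulAut.conjNormal_apply, hr]))⟩
      have h4 : (MulAut.conjNormal x : MulAut R) ^ 4 = 1 := by rw [← map_pow, hx4, map_one]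
      simpa [pow_succ, MulAut.mul_apply] using DFunLike.congr_fun h4 r
  -- so `G` is solvable
  haveI := hRsol
  haveI : Group.IsSolvable (commutator (G ⧸ R)) := by
    haveI := hNp.isNilpotent
    infer_instance
  haveI : Group.IsSolvable (G ⧸ R) := by
    have hq : Group.IsSolvable ((G ⧸ R) ⧸ commutator (G ⧸ R)) :=
      Group.isSolvable_of_comm fun a b => mul_comm (G := Abelianization (G ⧸ R)) a b
    haveI := hq
    exact Group.isSolvable_of_ker_le_range (commutator (G ⧸ R)).subtype
      (QuotientGroup.mk' (commutator (G ⧸ R))) (by rw [QuotientGroup.ker_mk', range_subtype])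
  exact Group.isSolvable_of_ker_le_range R.subtype (QuotientGroup.mk' R)
    (by rw [QuotientGroup.ker_mk', range_subtype])

end Cfsg.Agent.H23.OneClass
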